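import Cfsg.Agent.H48.G2Spec.TorusOrder
import Cfsg.Agent.H46.TypeF4

/-!
# Torus elements, possibly commuting with a root involution, and the tables for F4

`exists_torus_elt` extends `Cfsg.Agent.H48.G2Spec.exists_orderOf_torus`.
-/

set_option autoImplicit false

namespace Cfsg.Agent.H48.F4Graph

open Cfsg.Lie Cfsg.Agent.H46 Cfsg.Agent.H65 Cfsg.Agent.H67.Chev
open Cfsg.Agent.H48.G2Spec (twist_fixed_of_dvd)
open scoped Matrix MatrixGroups

variable {D : ChevalleyDatum} {G : Good D} {T : TorusData D}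

theorem exists_torus_elt (hd : T.d = 1) (hU : Unimod D G.tab) {F : Type*} [Field F] [Fintype F] (q : ℕ)
    (hF : Fintype.card F = q) (N : ℕ) (hNpos : 0 < N) (hα : T.α₀ < D.nroots) (hbase : IsCoprime (N : ℤ) (expo T q T.α₀))
    (hexp : ∀ s, s < D.nroots → (N : ℤ) ∣ expo T q (T.act s) - (q : ℤ) * expo T q s) (hNq : Nat.Coprime N q) :
    ∃ g : ↥(D.group F), orderOf g = N ∧ ∀ r₀ : Fin D.nroots, T.act r₀ = r₀ → (N : ℤ) ∣ expo T q r₀ → ringChar F = 2 →
      ∃ y : ↥(D.group F), orderOf y = 2 ∧ Commute g y := by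
  classical
  subst hF
  set q := Fintype.card F with hqdef
  have hq : 2 ≤ q := Fintype.one_lt_card
  let K := AlgebraicClosure F
  let ι := algebraMap F K
  obtain ⟨p, hp⟩ := CharP.exists F
  have hpprime : p.Prime := CharP.char_is_prime F p
  have : Fact p.Prime := ⟨hpprime⟩
  have : CharP K p := charP_of_injective_algebraMap ι.injective p
  obtain ⟨a, -, ha⟩ := FiniteField.card F p
  let σ : K ≃+* K := iterateFrobeniusEquiv K p a
  have hσ : ∀ x, σ x = x ^ q := fun x => by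
    rw [hqdef, ha]; exact iterateFrobeniusEquiv_def K p a x
  have hfix : ∀ x, σ x = x ↔ x ∈ Set.range ι := by
    intro x
    rw [hσ]
    constructor
    · intro hx
      by_contra hne
      let S : Finset K := insert x (Finset.univ.image ι)
      have hcard : q + 1 ≤ S.card := by
        rw [Finset.card_insert_of_notMem, Finset.card_image_of_injective _ ι.injective, Finset.card_univ]
        simpa using hne
      have hroots : S ⊆ (Polynomial.X ^ q - Polynomial.X : Polynomial K).roots.toFinset := by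
        intro y hy
        rw [Multiset.mem_toFinset, Polynomial.mem_roots (FiniteField.X_pow_card_sub_X_ne_zero K hq)]
        rcases Finset.mem_insert.1 hy with rfl | hy
        · simp [hx]
        · obtain ⟨z, -, rfl⟩ := Finset.mem_image.1 hy
          simp [← map_pow, hqdef, FiniteField.pow_card]
      have := (Finset.card_le_card hroots).trans ((Multiset.toFinset_card_le _).trans
        (Polynomial.card_roots' _))
      rw [FiniteField.X_pow_card_sub_X_natDegree_eq K hq] at this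
      omega
    · rintro ⟨z, rfl⟩
      rw [← map_pow, hqdef, FiniteField.pow_card]
  -- a primitive root of unity of order `N`
  have hNK : (N : K) ≠ 0 := by
    rw [Ne, CharP.cast_eq_zero_iff K p]
    intro h
    refine hpprime.ne_one (Nat.eq_one_of_dvd_coprimes hNq h ?_)
    show p ∣ Fintype.card F
    rw [ha]
    exact dvd_pow_self p a.ne_zero
  have : NeZero (N : K) := ⟨hNK⟩
  obtain ⟨ζ₀, hζ₀⟩ := HasEnoughRootsOfUnity.exists_primitiveRoot K N
  obtain ⟨ζ, rfl⟩ : IsUnit ζ₀ := hζ₀.isUnit hNpos.ne'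
  have hζ : IsPrimitiveRoot ζ N := IsPrimitiveRoot.coe_units_iff.1 hζ₀
  have hζpow : ∀ a b : ℤ, (N : ℤ) ∣ a - b → ζ ^ a = ζ ^ b := fun a b hab => by
    rw [← sub_add_cancel a b, zpow_add, (hζ.zpow_eq_one_iff_dvd _).2 hab, one_mul]
  let z : Fin D.rank → Kˣ := fun k =>
    ζ ^ (∑ i : Fin D.rank, (T.B.getD k []).getD i 0 * (q : ℤ) ^ (i : ℕ))
  have hval : ∀ s, s < D.nroots → G.torusVal z s = ζ ^ expo T q s := by
    intro s hs
    simp only [Good.torusVal, z, ← zpow_mul]
    rw [Finset.prod_congr rfl fun k (_ : k ∈ Finset.univ) => by rw [← G.cartan_eq hs k.2]]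
    have hsum : ∀ (S : Finset (Fin D.rank)) (f : Fin D.rank → ℤ), (∏ k ∈ S, ζ ^ f k) = ζ ^ ∑ k ∈ S, f k := by
      intro S f
      induction S using Finset.induction_on with
      | empty => simp
      | insert b S hb ih => rw [Finset.prod_insert hb, Finset.sum_insert hb, zpow_add, ih]
    rw [hsum, expo_eq]
    congr 1
    have e : ∀ i, T.eC s i = ∑ k : Fin D.rank, (T.B.getD k []).getD i 0 * D.cartan k s := fun i => by
      rw [TorusData.eC, hd, Nat.cast_one, Int.ediv_one, Fin.sum_univ_eq_sum_range (fun k => (T.B.getD k []).getD i 0 * D.cartan k s)]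
      rfl
    simp only [e, Finset.sum_mul]
    rw [Finset.sum_comm]
    exact Finset.sum_congr rfl fun i _ => Finset.sum_congr rfl fun k _ => by ring
  set n : GL D.Idx K := G.nProd T.L
  have hnN : n ∈ D.monomialSubgroup K := G.nProd_mem T.L
  set t := G.torus z
  have htwist : n * mapGL D (σ : K →+* K) t * n⁻¹ = t :=
    twist_fixed_of_dvd (fun x => hσ x) hexp hζ hval
  have hnG : n ∈ D.group K := G.monomial_le_group hnN
  obtain ⟨g, hg, hgn⟩ := lang G hq (σ := (σ : K →+* K)) (fun x => hσ x) hnG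
  have hσg : mapGL D (σ : K →+* K) g = g * n := by rw [← hgn, mul_inv_cancel_left]
  have htG : t ∈ D.group K := G.diagonal_le_group (G.mem_diagonal.2 ⟨z, rfl⟩)
  have hx0fix : mapGL D (σ : K →+* K) (g * t * g⁻¹) = g * t * g⁻¹ := by
    rw [map_mul, map_mul, map_inv, hσg]
    calc g * n * mapGL D (σ : K →+* K) t * (g * n)⁻¹ = g * (n * mapGL D (σ : K →+* K) t * n⁻¹) * g⁻¹ := by group
      _ = _ := by rw [htwist]
  obtain ⟨x, hx, hxe⟩ := group_fixed G ι σ hU hfix (mul_mem (mul_mem hg htG) (inv_mem hg)) hx0fix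
  set x' : ↥(D.group F) := ⟨x, hx⟩
  have hxpow : ∀ k : ℕ, mapGL D ι ((x' ^ k : ↥(D.group F)) : GL D.Idx F) = g * t ^ k * g⁻¹ := fun k => by
    rw [SubgroupClass.coe_pow, map_pow, hxe, conj_pow]
  have htpow : ∀ k : ℕ, t ^ k = 1 ↔ N ∣ k := by
    intro k
    have hpw : ∀ s, G.torusVal (z ^ k) s = G.torusVal z s ^ k := fun s => by
      induction k with
      | zero => rw [pow_zero, pow_zero, G.torusVal_one]
      | succ k ih => rw [pow_succ, pow_succ, G.torusVal_mul, ih]
    rw [← map_pow, G.torus_eq_one_iff]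
    constructor
    · intro h
      have := h T.α₀ hα
      rw [hpw, hval _ hα, ← zpow_natCast, ← zpow_mul] at this
      exact Int.natCast_dvd_natCast.1 (hbase.dvd_of_dvd_mul_left ((hζ.zpow_eq_one_iff_dvd _).1 this))
    · rintro ⟨j, rfl⟩ s hs
      rw [hpw, hval s hs, ← zpow_natCast (ζ ^ _), ← zpow_mul]
      exact (hζ.zpow_eq_one_iff_dvd _).2 ⟨expo T q s * j, by push_cast; ring⟩
  have hord : orderOf x' = N := by
    refine Nat.dvd_antisymm ?_ ((htpow _).1 ?_)
    · rw [orderOf_dvd_iff_pow_eq_one]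
      refine Subtype.ext (mapGL_injective ι ?_)
      rw [hxpow, (htpow N).2 dvd_rfl, mul_one, mul_inv_cancel]
      simp
    · have h1 := hxpow (orderOf x')
      rw [pow_orderOf_eq_one, OneMemClass.coe_one, map_one] at h1
      exact conj_eq_one_iff.1 h1.symm
  refine ⟨x', hord, fun r₀ hfixr hdvd hchar => ?_⟩
  haveI : CharP F 2 := ringChar.of_eq hchar
  haveI : CharP K 2 := charP_of_injective_algebraMap ι.injective 2
  obtain ⟨c, hcx⟩ := G.conj_xg_eq hnN r₀
  have hpr : G.perm n r₀ = r₀ := Fin.ext (by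
    rw [show G.perm n = _ from G.perm_nProd T.L, act_eq G r₀]; exact hfixr)
  rw [hpr] at hcx
  -- the structure constant lies in the field of two elements
  have hc1 : (c : K) = 1 := by
    haveI : Fact (Nat.Prime 2) := ⟨Nat.prime_two⟩
    have h1 := congrArg (mapGL D (frobenius K 2)) (hcx 1)
    rw [map_mul, map_mul, map_inv, mapGL_nProd G, mapGL_xg G, mapGL_xg G, map_one, mul_one, hcx, mul_one] at h1
    have h2 := G.xg_injective r₀.2 h1
    rw [frobenius_def, pow_two] at h2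
    exact mul_left_cancel₀ c.ne_zero (h2.symm.trans (mul_one _).symm)
  have hu : n * G.xg r₀ 1 * n⁻¹ = G.xg r₀ 1 := by rw [hcx, hc1, mul_one]
  have hfixu : mapGL D (σ : K →+* K) (g * G.xg r₀ 1 * g⁻¹) = g * G.xg r₀ 1 * g⁻¹ := by
    rw [map_mul, map_mul, map_inv, hσg, mapGL_xg G, map_one]
    calc g * n * G.xg r₀ 1 * (g * n)⁻¹ = g * (n * G.xg r₀ 1 * n⁻¹) * g⁻¹ := by group
      _ = _ := by rw [hu]
  obtain ⟨y, hy, hye⟩ := group_fixed G ι σ hU hfix (mul_mem (mul_mem hg (G.xg_mem_group _ _)) (inv_mem hg)) hfixu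
  refine ⟨⟨y, hy⟩, ?_, Subtype.ext (mapGL_injective ι ?_)⟩
  · haveI : Fact (Nat.Prime 2) := ⟨Nat.prime_two⟩
    rw [← Subgroup.orderOf_coe, ← orderOf_injective (mapGL D ι) (mapGL_injective ι), hye, ← MulAut.conj_apply]
    refine (orderOf_injective (MulAut.conj g).toMonoidHom (MulAut.conj g).injective _).trans
      (orderOf_eq_prime ?_ fun e => ?_)
    · rw [pow_two]
      refine Units.ext ?_
      rw [Units.val_mul, G.coe_xg, G.x_add r₀.2, one_add_one_eq_two, CharTwo.two_eq_zero, G.x_zero r₀.2]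
      rfl
    · exact one_ne_zero (G.xg_injective r₀.2 (e.trans (G.xg_zero r₀).symm))
  · show mapGL D ι (x * y) = mapGL D ι (y * x)
    have hcom : t * G.xg r₀ 1 = G.xg r₀ 1 * t := by
      have h1 := G.torus_conj_xg z r₀.2 (1 : K)
      rw [hval _ r₀.2, (hζ.zpow_eq_one_iff_dvd _).2 hdvd, Units.val_one, one_mul] at h1
      exact mul_inv_eq_iff_eq_mul.1 h1
    rw [map_mul, map_mul, hxe, hye]
    calc g * t * g⁻¹ * (g * G.xg r₀ 1 * g⁻¹) = g * (t * G.xg r₀ 1) * g⁻¹ := by group
      _ = g * (G.xg r₀ 1 * t) * g⁻¹ := by rw [hcom]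
      _ = _ := by group


/-- The coefficients of the difference between the exponent of the image and `q` times the exponent. -/
def diffV (T : TorusData chevF4) (s : ℕ) : List ℤ :=
  [T.eC (T.act s) 0, T.eC (T.act s) 1 - T.eC s 0, T.eC (T.act s) 2 - T.eC s 1, T.eC (T.act s) 3 - T.eC s 2,
    -T.eC s 3]

/-- The checks on a table, for the polynomial `P` of degree `d`. -/
def chkTorus (T : TorusData chevF4) (P : List ℤ) (d : ℕ) (k : ℤ) : Bool :=
  decide (T.d = 1) && decide (T.α₀ < chevF4.nroots) && decide (T.eV T.α₀ = [k, 0, 0, 0]) &&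
    (List.range chevF4.nroots).all fun s => decide (diffV T s = P.map fun a => -(T.eC s (d - 1)) * a)

theorem exists_of_chk (T : TorusData chevF4) (P : List ℤ) (d : ℕ) (k : ℤ) (h : chkTorus T P d k = true)
    {F : Type*} [Field F] [Fintype F] (N : ℕ) (hN : (N : ℤ) = evalL P (Fintype.card F)) (hNpos : 0 < N)
    (hk : IsCoprime (N : ℤ) k) (hNq : Nat.Coprime N (Fintype.card F)) :
    ∃ g : ↥(chevF4.group F), orderOf g = N ∧ ∀ r₀ : Fin chevF4.nroots, T.act r₀ = r₀ →
      (N : ℤ) ∣ expo T (Fintype.card F) r₀ → ringChar F = 2 → ∃ y : ↥(chevF4.group F), orderOf y = 2 ∧ Commute g y := by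
  simp only [chkTorus, Bool.and_eq_true, decide_eq_true_eq, List.all_eq_true, List.mem_range] at h
  obtain ⟨⟨⟨hd, hα⟩, hb⟩, htab⟩ := h
  refine exists_torus_elt (G := goodF4) hd unimod_F4 _ rfl N hNpos hα ?_ (fun s hs => ?_) hNq
  · rw [expo, hb]; simpa [evalL] using hk
  · have e : evalL (diffV T s) (Fintype.card F) =
        expo T (Fintype.card F) (T.act s) - (Fintype.card F : ℤ) * expo T (Fintype.card F) s := by
      rw [expo, expo]
      show _ = evalL [T.eC (T.act s) 0, T.eC (T.act s) 1, T.eC (T.act s) 2, T.eC (T.act s) 3] _ -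
        _ * evalL [T.eC s 0, T.eC s 1, T.eC s 2, T.eC s 3] _
      simp [diffV, evalL]
      ring
    rw [← e, htab s hs, evalL_map_mul, ← hN]
    exact dvd_mul_left _ _

/-- The table `tor1`. -/
def tor1 : TorusData chevF4 where
  L := ([2, 1, 2, 1, 0] : List (Fin 4))
  α₀ := 4
  h := 0
  c := [-1, 0, 0, 0]
  B := [[-1, 0, 0, -1], [-1, 0, -1, -2], [-2, 0, -2, -2], [-1, -1, -1, -1]]

theorem tor1_chk : chkTorus tor1 [-1, 0, 0, 0, 1] 4 2 = true := by decide +kernel

/-- The table `tor8`. -/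
def tor8 : TorusData chevF4 where
  L := ([3, 2, 1, 2, 1, 0] : List (Fin 4))
  α₀ := 7
  h := 0
  c := [1, 0, 0, 0]
  B := [[0, -1, 0, 0], [-1, -1, 0, 0], [-1, -1, -1, 1], [0, -1, 0, 1]]

theorem tor8_chk : chkTorus tor8 [1, 0, 0, 0, 1] 4 1 = true := by decide +kernel

/-- The table `tor12`. -/
def tor12 : TorusData chevF4 where
  L := ([3, 2, 1, 0] : List (Fin 4))
  α₀ := 11
  h := 0
  c := [1, 0, -1, 0]
  B := [[0, 0, -1, -1], [0, -1, -2, -1], [-1, -2, -2, -1], [-1, -1, -1, 0]]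

theorem tor12_chk : chkTorus tor12 [1, 0, -1, 0, 1] 4 1 = true := by decide +kernel

/-- The table `tor4`. -/
def tor4 : TorusData chevF4 where
  L := ([3, 1, 0] : List (Fin 4))
  α₀ := 28
  h := 0
  c := [-1, -1, 0, 1]
  B := [[0, 1, 1, 0], [1, 2, 1, 0], [1, 2, 2, 1], [0, 1, 1, 1]]

theorem tor4_chk : chkTorus tor4 [-1, -1, 0, 1, 1] 4 1 = true := by decide +kernel

/-- The table `tor5`. -/
def tor5 : TorusData chevF4 where
  L := ([2, 1, 0] : List (Fin 4))
  α₀ := 18
  h := 0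
  c := [-1, 1, 0, -1]
  B := [[0, 0, 0, -1], [0, 0, -1, -1], [0, -1, -1, -1], [-1, 0, 0, -1]]

theorem tor5_chk : chkTorus tor5 [-1, 1, 0, -1, 1] 4 1 = true := by decide +kernel

/-- The table `rootTor3`. -/
def rootTor3 : TorusData chevF4 where
  L := ([1, 0] : List (Fin 4))
  α₀ := 11
  h := 0
  c := [-1, 0, 0]
  B := [[0, 1, 0, 0], [1, 1, 0, 0], [1, 1, 1, 0], [0, 0, 0, 0]]

theorem rootTor3_chk : chkTorus rootTor3 [-1, 0, 0, 1, 0] 3 1 = true := by decide +kernel

theorem rootTor3_fix : rootTor3.act 0 = 0 ∧ rootTor3.eV 0 = [0, 0, 0, 0] := by decide +kernel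

/-- The table `rootTor6`. -/
def rootTor6 : TorusData chevF4 where
  L := ([2, 1, 0] : List (Fin 4))
  α₀ := 18
  h := 0
  c := [1, 0, 0]
  B := [[1, 0, 0, 0], [1, 0, -1, 0], [1, -1, -1, 0], [0, 0, 0, 0]]

theorem rootTor6_chk : chkTorus rootTor6 [1, 0, 0, 1, 0] 3 1 = true := by decide +kernel

theorem rootTor6_fix : rootTor6.act 0 = 0 ∧ rootTor6.eV 0 = [0, 0, 0, 0] := by decide +kernel

/-- The table `rootTor4`. -/
def rootTor4 : TorusData chevF4 where
  L := ([2, 1] : List (Fin 4))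
  α₀ := 9
  h := 0
  c := [1, 0]
  B := [[0, 0, 0, 0], [0, 1, 0, 0], [1, 1, 0, 0], [0, 0, 0, 0]]

theorem rootTor4_chk : chkTorus rootTor4 [1, 0, 1, 0, 0] 2 1 = true := by decide +kernel

theorem rootTor4_fix : rootTor4.act 0 = 0 ∧ rootTor4.eV 0 = [0, 0, 0, 0] := by decide +kernel

end Cfsg.Agent.H48.F4Graph
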