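import Cfsg.Agent.H48.F4Graph.NonAdj
import Cfsg.Agent.H48.F4Graph.Tori

/-!
# Which products of two primes are element orders of F4(2ⁿ): the existence
-/

set_option autoImplicit false

namespace Cfsg.Agent.H48.F4Graph

open Cfsg.Lie Cfsg.Agent.H67.Chev

/-- The five torus orders. -/
def torN : ℕ → ℕ → ℕ
  | 1, q => q ^ 4 - 1
  | 2, q => q ^ 4 + 1
  | 3, q => q ^ 4 - q ^ 2 + 1
  | 4, q => (q ^ 3 - 1) * (q + 1)
  | _, q => (q ^ 3 + 1) * (q - 1)

theorem dvd_torN {r q i : ℕ} [hr : Fact r.Prime] (hq : 1 ≤ q) (hi : 1 ≤ i ∧ i ≤ 5)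
    (h : orderOf (q : ZMod r) ∈ allowed i) : r ∣ torN i q := by
  set x : ZMod r := (q : ZMod r) with hx
  have hpow := pow_orderOf_eq_one x
  have hlt : ∀ m, 0 < m → m < orderOf x → x ^ m ≠ 1 := fun m hm hm' he =>
    absurd (Nat.le_of_dvd hm (orderOf_dvd_of_pow_eq_one he)) (not_le.2 hm')
  have hneg : ∀ m, x ^ m * x ^ m = 1 → x ^ m ≠ 1 → x ^ m = -1 := fun m h1 h2 =>
    (mul_self_eq_one_iff.1 h1).resolve_left h2
  have h24 : q ^ 2 ≤ q ^ 4 := Nat.pow_le_pow_right hq (by norm_num)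
  rw [← ZMod.natCast_eq_zero_iff]
  obtain ⟨hi1, hi5⟩ := hi
  interval_cases i <;> simp only [allowed, Finset.mem_insert, Finset.mem_singleton] at h <;>
    simp only [torN, Nat.cast_mul, Nat.cast_add, Nat.cast_sub (Nat.one_le_pow 4 q hq),
      Nat.cast_sub (Nat.one_le_pow 3 q hq), Nat.cast_sub h24, Nat.cast_sub hq, Nat.cast_pow, Nat.cast_one, ← hx]
  · rcases h with e | e | e <;> rw [e] at hpow
    · linear_combination (x ^ 3 + x ^ 2 + x + 1) * hpow
    · linear_combination (x ^ 2 + 1) * hpow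
    · linear_combination hpow
  · rw [h] at hpow
    have := hneg 4 (by rw [← pow_add]; exact hpow) (hlt 4 (by norm_num) (by omega))
    linear_combination this
  · rw [h] at hpow
    have h6 := hneg 6 (by rw [← pow_add]; exact hpow) (hlt 6 (by norm_num) (by omega))
    have h2 : x ^ 2 + 1 ≠ 0 := fun e => hlt 4 (by norm_num) (by omega) (by linear_combination (x ^ 2 - 1) * e)
    refine (mul_eq_zero.1 (show (x ^ 2 + 1) * (x ^ 4 - x ^ 2 + 1) = 0 by linear_combination h6)).resolve_left h2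
  · rcases h with e | e | e <;> rw [e] at hpow
    · linear_combination (x ^ 2 + x + 1) * (x + 1) * hpow
    · have := hneg 1 (by rw [← pow_add]; exact hpow) (hlt 1 (by norm_num) (by omega))
      linear_combination (x ^ 3 - 1) * this
    · linear_combination (x + 1) * hpow
  · rcases h with e | e | e <;> rw [e] at hpow
    · linear_combination (x ^ 3 + 1) * hpow
    · have := hneg 1 (by rw [← pow_add]; exact hpow) (hlt 1 (by norm_num) (by omega))
      linear_combination (x ^ 2 - x + 1) * (x - 1) * this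
    · have := hneg 3 (by rw [← pow_add]; exact hpow) (hlt 3 (by norm_num) (by omega))
      linear_combination (x - 1) * this

variable {F : Type*} [Field F] [Fintype F]

theorem exists_orderOf_torN {n : ℕ} (hn : 1 ≤ n) (hF : Fintype.card F = 2 ^ n) (i : ℕ) (hi : 1 ≤ i ∧ i ≤ 5) :
    ∃ g : ↥(chevF4.group F), orderOf g = torN i (Fintype.card F) := by
  set q := Fintype.card F with hq
  have hq2 : 2 ≤ q := hF ▸ (le_self_pow (by norm_num) (by omega : n ≠ 0))
  obtain ⟨j, hj⟩ : ∃ j, q = 2 * j := ⟨2 ^ (n - 1), by rw [hF, ← pow_succ', Nat.sub_add_cancel hn]⟩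
  have h24 : q ^ 2 < q ^ 4 := Nat.pow_lt_pow_right (by omega) (by norm_num)
  have h3 : 2 ≤ q ^ 3 := le_trans hq2 (Nat.le_self_pow (by norm_num) q)
  have h4 : 2 ≤ q ^ 4 := le_trans hq2 (Nat.le_self_pow (by norm_num) q)
  have hodd : Odd (torN i q) := by
    have heven : ∀ m, m ≠ 0 → Even (q ^ m) := fun m hm => (Nat.even_pow' hm).2 ⟨j, by omega⟩
    obtain ⟨hi1, hi5⟩ := hi
    interval_cases i <;> simp only [torN]
    · exact Nat.Even.sub_odd (by omega) (heven 4 (by norm_num)) odd_one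
    · exact (heven 4 (by norm_num)).add_one
    · exact ((Nat.even_sub h24.le).2 ⟨fun _ => heven 2 (by norm_num), fun _ => heven 4 (by norm_num)⟩).add_one
    · exact (Nat.Even.sub_odd (by omega) (heven 3 (by norm_num)) odd_one).mul
        (Even.add_one ⟨j, by omega⟩)
    · exact ((heven 3 (by norm_num)).add_one).mul (Nat.Even.sub_odd (by omega) ⟨j, by omega⟩ odd_one)
  have hpos : 0 < torN i q := hodd.pos
  have hco : Nat.Coprime (torN i q) q := by
    have h2 := hodd.coprime_two_right.pow_right n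
    rwa [← hF] at h2
  have hk2 : IsCoprime ((torN i q : ℕ) : ℤ) 2 :=
    Int.isCoprime_iff_nat_coprime.2 (by simpa using hodd.coprime_two_right)
  have hN : ((q ^ 2 : ℕ) : ℤ) = (q : ℤ) ^ 2 := by push_cast; rfl
  obtain ⟨hi1, hi5⟩ := hi
  interval_cases i
  · obtain ⟨g, hg, -⟩ := exists_of_chk tor1 _ _ _ tor1_chk (F := F) (torN 1 q) (by
      simp only [torN, ← hq]; push_cast [Nat.cast_sub (by omega : 1 ≤ q ^ 4)]; simp [evalL]; ring) hpos hk2 hco
    exact ⟨g, hg⟩
  · obtain ⟨g, hg, -⟩ := exists_of_chk tor8 _ _ _ tor8_chk (F := F) (torN 2 q) (by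
      simp only [torN, ← hq]; push_cast; simp [evalL]; ring) hpos isCoprime_one_right hco
    exact ⟨g, hg⟩
  · obtain ⟨g, hg, -⟩ := exists_of_chk tor12 _ _ _ tor12_chk (F := F) (torN 3 q) (by
      simp only [torN, ← hq]; push_cast [Nat.cast_sub h24.le]; simp [evalL]; ring) hpos isCoprime_one_right hco
    exact ⟨g, hg⟩
  · obtain ⟨g, hg, -⟩ := exists_of_chk tor4 _ _ _ tor4_chk (F := F) (torN 4 q) (by
      simp only [torN, ← hq]; push_cast [Nat.cast_sub (by omega : 1 ≤ q ^ 3)]; simp [evalL]; ring) hpos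
      isCoprime_one_right hco
    exact ⟨g, hg⟩
  · obtain ⟨g, hg, -⟩ := exists_of_chk tor5 _ _ _ tor5_chk (F := F) (torN 5 q) (by
      simp only [torN, ← hq]; push_cast [Nat.cast_sub (by omega : 1 ≤ q)]; simp [evalL]; ring) hpos
      isCoprime_one_right hco
    exact ⟨g, hg⟩

/-- Adjacency of two primes of a common torus. -/
theorem exists_orderOf_mul_of_allowed {n : ℕ} (hn : 1 ≤ n) (hF : Fintype.card F = 2 ^ n) {r s i : ℕ} (hr : r.Prime)
    (hs : s.Prime) (hrs : r ≠ s) (hi : 1 ≤ i ∧ i ≤ 5)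
    (her : orderOf ((Fintype.card F : ℕ) : ZMod r) ∈ allowed i)
    (hes : orderOf ((Fintype.card F : ℕ) : ZMod s) ∈ allowed i) :
    ∃ x : ↥(chevF4.group F), orderOf x = r * s := by
  obtain ⟨g, hg⟩ := exists_orderOf_torN hn hF i hi
  haveI := Fact.mk hr
  haveI := Fact.mk hs
  have hdvd : r * s ∣ orderOf g := hg ▸ ((Nat.coprime_primes hr hs).2 hrs).mul_dvd_of_dvd_of_dvd
    (dvd_torN Fintype.card_pos hi her) (dvd_torN Fintype.card_pos hi hes)
  exact ⟨g ^ (orderOf g / (r * s)), orderOf_pow_orderOf_div (orderOf_pos g).ne' hdvd⟩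

/-- An involution commutes with elements of these prime orders. -/
theorem exists_orderOf_two_mul {n : ℕ} (hn : 1 ≤ n) (hF : Fintype.card F = 2 ^ n) {s : ℕ} (hs : s.Prime)
    (hs2 : s ≠ 2) (he : orderOf ((Fintype.card F : ℕ) : ZMod s) ∈ ({1, 2, 3, 4, 6} : Finset ℕ)) :
    ∃ x : ↥(chevF4.group F), orderOf x = 2 * s := by
  haveI := Fact.mk hs
  haveI : Fact (Nat.Prime 2) := ⟨Nat.prime_two⟩
  haveI : CharP F 2 := charP_of_card_eq_prime_pow hF
  set q := Fintype.card F with hq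
  have hq2 : 2 ≤ q := hF ▸ (le_self_pow (by norm_num) (by omega : n ≠ 0))
  have hchar : ringChar F = 2 := ringChar.eq F 2
  obtain ⟨j, hj⟩ : ∃ j, q = 2 * j := ⟨2 ^ (n - 1), by rw [hF, ← pow_succ', Nat.sub_add_cancel hn]⟩
  have heven : ∀ m, m ≠ 0 → Even (q ^ m) := fun m hm => (Nat.even_pow' hm).2 ⟨j, by omega⟩
  have fin : ∀ (N : ℕ), s ∣ N → ∀ g y : ↥(chevF4.group F), orderOf g = N → orderOf y = 2 → Commute g y →
      ∃ x : ↥(chevF4.group F), orderOf x = 2 * s := by
    intro N hsN g y hg hy hc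
    have hgs : orderOf (g ^ (orderOf g / s)) = s := orderOf_pow_orderOf_div (orderOf_pos g).ne' (hg ▸ hsN)
    refine ⟨y * g ^ (orderOf g / s), ?_⟩
    rw [(hc.symm.pow_right _).orderOf_mul_eq_mul_orderOf_of_coprime
      (by rw [hgs, hy]; exact (Nat.coprime_primes Nat.prime_two hs).2 hs2.symm), hgs, hy]
  have hco : ∀ {N : ℕ}, Odd N → Nat.Coprime N q := fun {N} h => by
    have h2 := h.coprime_two_right.pow_right n
    rwa [← hF] at h2
  have hroot : ∀ (T : TorusData chevF4) (N : ℕ), T.eV 0 = [0, 0, 0, 0] → (N : ℤ) ∣ expo T q (0 : ℕ) := by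
    intro T N h
    rw [expo, h]; simp [evalL]
  set x : ZMod s := (q : ZMod s) with hx
  have hpow := pow_orderOf_eq_one x
  have hlt : ∀ m, 0 < m → m < orderOf x → x ^ m ≠ 1 := fun m hm hm' he =>
    absurd (Nat.le_of_dvd hm (orderOf_dvd_of_pow_eq_one he)) (not_le.2 hm')
  have hneg : ∀ m, x ^ m * x ^ m = 1 → x ^ m ≠ 1 → x ^ m = -1 := fun m h1 h2 =>
    (mul_self_eq_one_iff.1 h1).resolve_left h2
  simp only [Finset.mem_insert, Finset.mem_singleton] at he
  have h3 : 2 ≤ q ^ 3 := le_trans hq2 (Nat.le_self_pow (by norm_num) q)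
  obtain h13 | h4 | h26 : (orderOf x = 1 ∨ orderOf x = 3) ∨ orderOf x = 4 ∨ (orderOf x = 2 ∨ orderOf x = 6) := by
    tauto
  · have hodd : Odd (q ^ 3 - 1) := Nat.Even.sub_odd (by omega) (heven 3 (by norm_num)) odd_one
    obtain ⟨g, hg, hy⟩ := exists_of_chk rootTor3 _ _ _ rootTor3_chk (F := F) (q ^ 3 - 1) (by
      rw [← hq]; push_cast [Nat.cast_sub (by omega : 1 ≤ q ^ 3)]; simp [evalL]; ring) hodd.pos isCoprime_one_right
      (hco hodd)
    obtain ⟨y, hy2, hc⟩ := hy ⟨0, by decide⟩ rootTor3_fix.1 (hroot _ _ rootTor3_fix.2) hchar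
    refine fin _ ?_ g y hg hy2 hc
    rw [← ZMod.natCast_eq_zero_iff, Nat.cast_sub (by omega : 1 ≤ q ^ 3), Nat.cast_pow, ← hx, Nat.cast_one]
    rcases h13 with e | e <;> rw [e] at hpow
    · linear_combination (x ^ 2 + x + 1) * hpow
    · linear_combination hpow
  · have hodd : Odd (q ^ 2 + 1) := (heven 2 (by norm_num)).add_one
    obtain ⟨g, hg, hy⟩ := exists_of_chk rootTor4 _ _ _ rootTor4_chk (F := F) (q ^ 2 + 1) (by
      rw [← hq]; push_cast; simp [evalL]; ring) hodd.pos isCoprime_one_right (hco hodd)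
    obtain ⟨y, hy2, hc⟩ := hy ⟨0, by decide⟩ rootTor4_fix.1 (hroot _ _ rootTor4_fix.2) hchar
    refine fin _ ?_ g y hg hy2 hc
    rw [← ZMod.natCast_eq_zero_iff, Nat.cast_add, Nat.cast_pow, ← hx, Nat.cast_one]
    rw [h4] at hpow
    linear_combination hneg 2 (by rw [← pow_add]; exact hpow) (hlt 2 (by norm_num) (by omega))
  · have hodd : Odd (q ^ 3 + 1) := (heven 3 (by norm_num)).add_one
    obtain ⟨g, hg, hy⟩ := exists_of_chk rootTor6 _ _ _ rootTor6_chk (F := F) (q ^ 3 + 1) (by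
      rw [← hq]; push_cast; simp [evalL]; ring) hodd.pos isCoprime_one_right (hco hodd)
    obtain ⟨y, hy2, hc⟩ := hy ⟨0, by decide⟩ rootTor6_fix.1 (hroot _ _ rootTor6_fix.2) hchar
    refine fin _ ?_ g y hg hy2 hc
    rw [← ZMod.natCast_eq_zero_iff, Nat.cast_add, Nat.cast_pow, ← hx, Nat.cast_one]
    rcases h26 with e | e <;> rw [e] at hpow
    · linear_combination (x ^ 2 - x + 1) *
        hneg 1 (by rw [← pow_add]; exact hpow) (hlt 1 (by norm_num) (by omega))
    · linear_combination hneg 3 (by rw [← pow_add]; exact hpow) (hlt 3 (by norm_num) (by omega))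

end Cfsg.Agent.H48.F4Graph
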