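import Cfsg.Agent.H48.F4Graph.SylowDiag

/-!
# Which products of two primes are element orders of F4(2ⁿ): the restrictions
-/

set_option autoImplicit false

namespace Cfsg.Agent.H48.F4Graph

open Cfsg.Lie Cfsg.Agent.H46 Cfsg.Agent.H65

theorem mem_orders_of_dvd_card {F : Type*} [Field F] [Fintype F] {n s : ℕ} (hF : Fintype.card F = 2 ^ n)
    (hs : s.Prime) (hs2 : s ≠ 2) (hdvd : s ∣ Nat.card ↥(chevF4.group F)) :
    orderOf ((Fintype.card F : ℕ) : ZMod s) ∈ ({1, 2, 3, 4, 6, 8, 12} : Finset ℕ) := by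
  haveI := Fact.mk hs
  have hG := S1062.result (F := F) (q := Fintype.card F) rfl
  rw [hG] at hdvd
  have hq : 1 ≤ Fintype.card F := Fintype.card_pos
  have hne : ¬ s ∣ Fintype.card F ^ 24 := fun h => hs2 ((Nat.prime_dvd_prime_iff_eq hs Nat.prime_two).1
    (hs.dvd_of_dvd_pow (hF ▸ hs.dvd_of_dvd_pow h)))
  have key : ∀ d, s ∣ Fintype.card F ^ d - 1 → orderOf ((Fintype.card F : ℕ) : ZMod s) ∈ d.divisors ∨ d = 0 := by
    intro d hd
    by_cases hd0 : d = 0
    · exact Or.inr hd0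
    left
    refine Nat.mem_divisors.2 ⟨orderOf_dvd_of_pow_eq_one ?_, hd0⟩
    rw [← Nat.cast_pow, ← Nat.cast_one, ZMod.natCast_eq_natCast_iff]
    exact ((Nat.modEq_iff_dvd' (Nat.one_le_pow _ _ hq)).2 hd).symm
  have sub : ∀ d, d = 2 ∨ d = 6 ∨ d = 8 ∨ d = 12 → ∀ e ∈ Nat.divisors d, e ∈ ({1, 2, 3, 4, 6, 8, 12} : Finset ℕ) := by
    rintro d (rfl | rfl | rfl | rfl) <;> decide
  simp only [hs.dvd_mul] at hdvd
  rcases hdvd with (((h | h) | h) | h) | h
  · exact absurd h hne
  · exact sub 2 (by norm_num) _ ((key 2 h).resolve_right (by norm_num))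
  · exact sub 6 (by norm_num) _ ((key 6 h).resolve_right (by norm_num))
  · exact sub 8 (by norm_num) _ ((key 8 h).resolve_right (by norm_num))
  · exact sub 12 (by norm_num) _ ((key 12 h).resolve_right (by norm_num))

variable {F : Type*} [Field F] [Fintype F] {K : Type*} [Field K]

theorem dvd_pow_sub_one_of_order {s e : ℕ} (hs : s.Prime)
    (he : orderOf ((Fintype.card F : ℕ) : ZMod s) = e) (h24 : e ∣ 24) : s ∣ Fintype.card F ^ 24 - 1 := by
  haveI := Fact.mk hs
  have h : (((Fintype.card F : ℕ) : ZMod s)) ^ 24 = 1 := orderOf_dvd_iff_pow_eq_one.1 (he ▸ h24)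
  rw [← Nat.cast_pow, ← Nat.cast_one, ZMod.natCast_eq_natCast_iff] at h
  exact (Nat.modEq_iff_dvd' (Nat.one_le_pow _ _ Fintype.card_pos)).1 h.symm

theorem five_le_of_order {s q e : ℕ} (hs : s.Prime) (he : orderOf (q : ZMod s) = e) (he3 : 3 ≤ e) : 5 ≤ s := by
  by_contra h
  have h2 := hs.two_le
  interval_cases s
  · have := orderOf_le_card_univ (x := (q : ZMod 2))
    rw [ZMod.card] at this
    omega
  · have key : ∀ y : ZMod 3, y = 0 ∨ y ^ 2 = 1 := by decide
    rcases key (q : ZMod 3) with h0 | h1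
    · rw [h0, orderOf_zero] at he; omega
    · have := Nat.le_of_dvd two_pos (orderOf_dvd_of_pow_eq_one h1); omega
  · exact absurd hs (by norm_num)

/-- A fixed element conjugate to a torus element gives a twisted torus element. -/
theorem exists_twisted {q : ℕ} (σ : K →+* K) (hσ : ∀ x, σ x = x ^ q) {g X : GL chevF4.Idx K}
    (hg : g ∈ chevF4.group K) (hX : mapGL chevF4 σ X = X) {z : Fin chevF4.rank → Kˣ}
    (hz : g * goodF4.torus z * g⁻¹ = X) : ∃ L, Twisted z q L := by
  have hσt : mapGL chevF4 σ (goodF4.torus z) = goodF4.torus (z ^ q) := by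
    rw [mapGL_torus goodF4]
    congr 1
    funext k
    exact Units.ext (by simpa using hσ (z k : K))
  have h1 := congrArg (mapGL chevF4 σ) hz
  rw [map_mul, map_mul, map_inv, hσt, hX] at h1
  set h := g⁻¹ * mapGL chevF4 σ g with hh
  have hc : goodF4.torus z * h = h * goodF4.torus (z ^ q) := by
    have h2 : mapGL chevF4 σ g * goodF4.torus (z ^ q) * (mapGL chevF4 σ g)⁻¹ =
        g * goodF4.torus z * g⁻¹ := h1.trans hz.symm
    calc goodF4.torus z * h = g⁻¹ * (g * goodF4.torus z * g⁻¹) * mapGL chevF4 σ g := by rw [hh]; group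
      _ = h * goodF4.torus (z ^ q) := by rw [← h2, hh]; group
  obtain ⟨L, hL⟩ := exists_word_of_conj (mul_mem (inv_mem hg) (mapGL_mem_group σ hg)) hc
  exact ⟨L, fun v => (hL v).trans (charVal_pow z q v)⟩

theorem twisted_pow {z : Fin chevF4.rank → Kˣ} {q : ℕ} {L : List (Fin chevF4.rank)} (hL : Twisted z q L) (m : ℕ) :
    Twisted (z ^ m) q L := fun v => by
  rw [charVal_pow, charVal_pow, hL, ← pow_mul, ← pow_mul, mul_comm]

theorem torus_eq_one_of_sq {z : Fin chevF4.rank → Kˣ} [CharP K 2] (h : goodF4.torus z ^ 2 = 1) :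
    goodF4.torus z = 1 :=
  torus_eq_one_of_charVal fun v => by
    have h1 := congrArg Units.val (charVal_pow_eq_one h v)
    rw [Units.val_pow_eq_pow_val, Units.val_one] at h1
    refine Units.ext (sub_eq_zero.1 (eq_zero_of_pow_eq_zero (n := 2) ?_))
    rw [sub_pow_char, Units.val_one, one_pow, h1, sub_self]

/-- A twisted torus element of order a product of two primes. -/
theorem exists_allowed [CharP K 2] {r s q : ℕ} (hr : r.Prime) (hs : s.Prime) {z : Fin chevF4.rank → Kˣ}
    {L : List (Fin chevF4.rank)} (hL : Twisted z q L) (hord : orderOf (goodF4.torus z) = r * s) :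
    r ≠ 2 ∧ s ≠ 2 ∧ ∃ i, 1 ≤ i ∧ i ≤ 5 ∧ orderOf (q : ZMod r) ∈ allowed i ∧ orderOf (q : ZMod s) ∈ allowed i := by
  obtain ⟨W⟩ := nonempty_facts L
  have hne : r * s ≠ 0 := Nat.mul_ne_zero hr.ne_zero hs.ne_zero
  have hr' : orderOf (goodF4.torus (z ^ s)) = r := by
    rw [map_pow, orderOf_pow_of_dvd hs.ne_zero (hord ▸ dvd_mul_left s r), hord, Nat.mul_div_cancel _ hs.pos]
  have hs' : orderOf (goodF4.torus (z ^ r)) = s := by
    rw [map_pow, orderOf_pow_of_dvd hr.ne_zero (hord ▸ dvd_mul_right r s), hord, Nat.mul_div_cancel_left _ hr.pos]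
  have step : ∀ {p : ℕ} {m : ℕ}, p.Prime → orderOf (goodF4.torus (z ^ m)) = p →
      p ≠ 2 ∧ orderOf (q : ZMod p) ∈ allowed W.kind := by
    intro p m hp hpo
    haveI := Fact.mk hp
    have h1 : goodF4.torus (z ^ m) ^ p = 1 := hpo ▸ pow_orderOf_eq_one _
    have hne1 : goodF4.torus (z ^ m) ≠ 1 := fun e => by
      rw [e, orderOf_one] at hpo; exact hp.one_lt.ne hpo
    have hp2 : p ≠ 2 := fun e => by subst e; exact hne1 (torus_eq_one_of_sq h1)
    exact ⟨hp2, orderOf_mem_allowed hp2 W.kind_le (dvd_quarticVal (twisted_pow hL m) hp h1 hne1 W)⟩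
  exact ⟨(step hr hr').1, (step hs hs').1, W.kind, W.kind_le.1, W.kind_le.2, (step hr hr').2, (step hs hs').2⟩

/-- The restriction on element orders. -/
theorem restriction {n : ℕ} (hF : Fintype.card F = 2 ^ n) {r s : ℕ} (hr : r.Prime) (hs : s.Prime) (hrs : r ≠ s)
    {x : ↥(chevF4.group F)} (hx : orderOf x = r * s)
    (h : orderOf ((Fintype.card F : ℕ) : ZMod s) ∈ ({8, 12} : Finset ℕ) ∨
      (5 ≤ r ∧ 5 ≤ s ∧ orderOf ((Fintype.card F : ℕ) : ZMod r) ∣ 24 ∧
        orderOf ((Fintype.card F : ℕ) : ZMod s) ∣ 24)) :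
    r ≠ 2 ∧ s ≠ 2 ∧ ∃ i, 1 ≤ i ∧ i ≤ 5 ∧ orderOf ((Fintype.card F : ℕ) : ZMod r) ∈ allowed i ∧
      orderOf ((Fintype.card F : ℕ) : ZMod s) ∈ allowed i := by
  classical
  haveI : Fact (Nat.Prime 2) := ⟨Nat.prime_two⟩
  haveI : CharP F 2 := charP_of_card_eq_prime_pow hF
  set q := Fintype.card F with hq
  let K := AlgebraicClosure F
  let ι := algebraMap F K
  haveI : CharP K 2 := charP_of_injective_ringHom ι.injective 2
  let σ : K →+* K := iterateFrobenius K 2 n
  have hσ : ∀ x, σ x = x ^ q := fun x => by rw [hF]; exact iterateFrobenius_def 2 n x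
  have hσι : ∀ a : F, σ (ι a) = ι a := fun a => by rw [hσ, ← map_pow, hq, FiniteField.pow_card]
  set X := mapGL chevF4 ι (x : GL chevF4.Idx F) with hXdef
  have hσX : mapGL chevF4 σ X = X := by
    rw [hXdef, mapGL_comp]
    congr 2
    exact RingHom.ext hσι
  have hxord : orderOf X = r * s := by
    rw [hXdef, orderOf_injective (mapGL chevF4 ι) (mapGL_injective ι), Subgroup.orderOf_coe, hx]
  -- reduce to an element of the torus
  suffices hT : ∃ g ∈ chevF4.group K, ∃ z, g * goodF4.torus z * g⁻¹ = X by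
    obtain ⟨g, hg, z, hz⟩ := hT
    obtain ⟨L, hL⟩ := exists_twisted σ hσ hg hσX hz
    refine exists_allowed hr hs hL ?_
    rw [← hxord, ← hz, ← MulAut.conj_apply]
    exact ((orderOf_injective (MulAut.conj g).toMonoidHom (MulAut.conj g).injective _)).symm
  rcases h with h8 | ⟨hr5, hs5, hr24, hs24⟩
  · obtain ⟨e, he, he24, he3⟩ : ∃ e, orderOf (q : ZMod s) = e ∧ e ∣ 24 ∧ 3 ≤ e := by
      simp only [Finset.mem_insert, Finset.mem_singleton] at h8
      rcases h8 with h8 | h8 <;> exact ⟨_, h8, by norm_num, by norm_num⟩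
    have hs5 := five_le_of_order hs he he3
    haveI := Fact.mk hs
    have hy1 : (x : GL chevF4.Idx F) ^ r ^ 1 ∈ chevF4.group F := pow_mem x.2 _
    rw [pow_one] at hy1
    have hys : ((x : GL chevF4.Idx F) ^ r) ^ s = 1 := by
      rw [← pow_mul, ← hx, ← Subgroup.orderOf_coe, pow_orderOf_eq_one]
    obtain ⟨g, hg, z, hz⟩ := exists_torus_one (K := K) hs hs5 (dvd_pow_sub_one_of_order hs he he24) hy1 hys
    rw [map_pow] at hz
    have hzs : goodF4.torus z ^ s = 1 := by
      have h1 := congrArg (· ^ s) hz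
      simp only [conj_pow, ← pow_mul] at h1
      have h2 : X ^ (r * s) = 1 := by rw [← hxord, pow_orderOf_eq_one]
      exact conj_eq_one_iff.1 (h1.trans h2)
    have hz1 : goodF4.torus z ≠ 1 := fun e1 => by
      rw [e1, mul_one, mul_inv_cancel, ← hXdef] at hz
      have := orderOf_dvd_of_pow_eq_one hz.symm
      rw [hxord] at this
      have := Nat.le_of_dvd hr.pos this
      have := Nat.mul_le_mul_left r hs.two_le
      have := hr.pos
      omega
    obtain ⟨L, hL⟩ := exists_twisted σ hσ hg (by rw [map_pow, ← hXdef, hσX]) hz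
    obtain ⟨W⟩ := nonempty_facts L
    have hs2 : s ≠ 2 := by omega
    have hmem := orderOf_mem_allowed hs2 W.kind_le (dvd_quarticVal hL hs hzs hz1 W)
    have hk : W.kind = 2 ∨ W.kind = 3 := by
      simp only [Finset.mem_insert, Finset.mem_singleton] at h8
      obtain ⟨h1, h5⟩ := W.kind_le
      interval_cases hkv : W.kind <;> first
        | exact Or.inl rfl
        | exact Or.inr rfl
        | (simp only [allowed, Finset.mem_insert, Finset.mem_singleton] at hmem; omega)
    have hreg := regular_of_kind hL hs hs2 hzs hz1 W hk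
    have hm : g⁻¹ * X * g ∈ chevF4.group K :=
      mul_mem (mul_mem (inv_mem hg) (mapGL_mem_group ι x.2)) hg
    have hd := mem_diagonal_of_commute hs hs5 hzs hreg hm (by
      have e : goodF4.torus z = g⁻¹ * X ^ r * g := by rw [hXdef, ← hz]; group
      rw [e]
      calc g⁻¹ * X ^ r * g * (g⁻¹ * X * g) = g⁻¹ * (X ^ r * X) * g := by group
        _ = g⁻¹ * (X * X ^ r) * g := by rw [← pow_succ, ← pow_succ']
        _ = _ := by group)
    obtain ⟨z', hz'⟩ := goodF4.mem_diagonal.1 hd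
    exact ⟨g, hg, z', by rw [← hz']; group⟩
  · exact exists_torus_two hr hs hrs hr5 hs5 (dvd_pow_sub_one_of_order hr rfl hr24)
      (dvd_pow_sub_one_of_order hs rfl hs24) x.2 (by rw [← hx, ← Subgroup.orderOf_coe, pow_orderOf_eq_one])

end Cfsg.Agent.H48.F4Graph
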