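import Cfsg.Agent.H48.F4Graph.Torus
import Cfsg.Agent.S1062
import Cfsg.Agent.H65.Chev.FieldFixed

/-!
# Elements of orders prime to six are conjugate into the torus over the algebraic closure
-/

set_option autoImplicit false

namespace Cfsg.Agent.H48.F4Graph

open Cfsg.Lie Cfsg.Agent.H46 Cfsg.Agent.H65

/-- An element of prime order is conjugate into a subgroup of index prime to it. -/
theorem exists_conj_mem {Γ : Type*} [Group Γ] [Finite Γ] (H : Subgroup Γ) {r : ℕ} (hr : r.Prime)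
    (hidx : ¬ r ∣ H.index) {y : Γ} (hy : y ^ r = 1) : ∃ g : Γ, g⁻¹ * y * g ∈ H := by
  haveI : Fact r.Prime := ⟨hr⟩
  by_cases h1 : y = 1
  · exact ⟨1, by simp [h1]⟩
  have hP : IsPGroup r (Subgroup.zpowers y) := IsPGroup.of_card (n := 1) (by
    rw [Nat.card_zpowers, orderOf_eq_prime hy h1, pow_one])
  obtain ⟨c, hc⟩ := hP.nonempty_fixed_point_of_prime_not_dvd_card (Γ ⧸ H) (by
    rw [← Subgroup.index_eq_card]; exact hidx)
  obtain ⟨g, rfl⟩ := QuotientGroup.mk_surjective c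
  have hfix : ((y * g : Γ) : Γ ⧸ H) = (g : Γ ⧸ H) := hc ⟨y, Subgroup.mem_zpowers y⟩
  refine ⟨g, ?_⟩
  rw [mul_assoc]
  exact QuotientGroup.eq.1 hfix.symm

/-- A power by a combination of two coprime exponents. -/
theorem mem_of_pow_mem {Γ : Type*} [Group Γ] (H : Subgroup Γ) {r s : ℕ} (hco : Nat.Coprime r s) {x : Γ}
    (hr : x ^ r ∈ H) (hs : x ^ s ∈ H) : x ∈ H := by
  have h : (r : ℤ) * Nat.gcdA r s + s * Nat.gcdB r s = 1 := by
    rw [← Nat.gcd_eq_gcd_ab, hco.gcd_eq_one]; rfl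
  rw [← zpow_one x, ← h, zpow_add, zpow_mul, zpow_mul, zpow_natCast, zpow_natCast]
  exact mul_mem (H.zpow_mem hr _) (H.zpow_mem hs _)

section finite

variable {E : Type*} [Field E] [Fintype E]

/-- The split torus inside the group. -/
def diagIn (E : Type*) [Field E] : Subgroup ↥(chevF4.group E) :=
  (chevF4.diagonalSubgroup E).subgroupOf (chevF4.group E)

theorem not_dvd_index_diagIn {r : ℕ} (hr : r.Prime) (hr5 : 5 ≤ r) (hdvd : r ∣ Fintype.card E - 1) :
    ¬ r ∣ (diagIn E).index := by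
  classical
  haveI : Fact r.Prime := ⟨hr⟩
  set Q := Fintype.card E with hQ
  have hQ2 : 2 ≤ Q := Fintype.one_lt_card
  have hH : Nat.card (diagIn E) = (Q - 1) ^ 4 := by
    rw [diagIn, Nat.card_congr (Subgroup.subgroupOfEquivOfLe (goodF4.diagonal_le_group (F := E))).toEquiv,
      goodF4.diagonal_eq_range,
      ← Nat.card_congr (MonoidHom.ofInjective (torus_injective goodF4 (F := E) unimod_F4)).toEquiv,
      Nat.card_fun, Nat.card_units, Nat.card_eq_fintype_card, Nat.card_fin]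
    rfl
  have hG := S1062.result (F := E) hQ.symm
  have hmul := (diagIn E).card_mul_index
  rw [hH, hG] at hmul
  have hgeom : ∀ d : ℕ, Q ^ d - 1 = (∑ i ∈ Finset.range d, Q ^ i) * (Q - 1) := fun d => by
    have := geom_sum_mul_add (Q - 1) d
    rw [Nat.sub_add_cancel (by omega : 1 ≤ Q)] at this
    omega
  rw [hgeom 2, hgeom 6, hgeom 8, hgeom 12] at hmul
  have hidx : (diagIn E).index = Q ^ 24 * ((∑ i ∈ Finset.range 2, Q ^ i) * (∑ i ∈ Finset.range 6, Q ^ i) *
      (∑ i ∈ Finset.range 8, Q ^ i) * (∑ i ∈ Finset.range 12, Q ^ i)) :=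
    Nat.eq_of_mul_eq_mul_left (pow_pos (by omega : 0 < Q - 1) 4) (hmul.trans (by ring))
  have hQr : (Q : ZMod r) = 1 := by
    rw [← Nat.cast_one, ZMod.natCast_eq_natCast_iff]
    exact ((Nat.modEq_iff_dvd' (by omega)).2 hdvd).symm
  intro h
  rw [← ZMod.natCast_eq_zero_iff, hidx] at h
  simp only [Nat.cast_mul, Nat.cast_pow, Nat.cast_sum, hQr, one_pow, Finset.sum_const, Finset.card_range,
    nsmul_eq_mul, mul_one, one_mul] at h
  have h' : ((1152 : ℕ) : ZMod r) = 0 := by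
    refine Eq.trans ?_ h
    push_cast
    ring
  rw [ZMod.natCast_eq_zero_iff, show (1152 : ℕ) = 2 ^ 7 * 3 ^ 2 by norm_num, hr.dvd_mul] at h'
  rcases h' with h' | h'
  · have := Nat.le_of_dvd two_pos (hr.dvd_of_dvd_pow h'); omega
  · have := Nat.le_of_dvd (by norm_num) (hr.dvd_of_dvd_pow h'); omega

/-- Elements of order a product of two primes are conjugate into the split torus. -/
theorem exists_conj_diagIn_two {r s : ℕ} (hr : r.Prime) (hs : s.Prime) (hrs : r ≠ s) (hr5 : 5 ≤ r) (hs5 : 5 ≤ s)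
    (hrQ : r ∣ Fintype.card E - 1) (hsQ : s ∣ Fintype.card E - 1) {x : ↥(chevF4.group E)}
    (hx : x ^ (r * s) = 1) : ∃ g : ↥(chevF4.group E), g⁻¹ * x * g ∈ diagIn E := by
  obtain ⟨g, hg⟩ := exists_conj_mem (diagIn E) hr (not_dvd_index_diagIn hr hr5 hrQ) (y := x ^ s)
    (by rw [← pow_mul, mul_comm, hx])
  set d := g⁻¹ * x ^ s * g with hd
  set C := Subgroup.centralizer ({d} : Set ↥(chevF4.group E))
  have hHC : diagIn E ≤ C := fun a ha => Subgroup.mem_centralizer_singleton_iff.2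
    (Subtype.ext (goodF4.diagonal_comm ha hg))
  have hidx : ¬ s ∣ ((diagIn E).subgroupOf C).index := by
    intro h
    refine not_dvd_index_diagIn hs hs5 hsQ (h.trans ?_)
    exact ⟨C.index, (Subgroup.relIndex_mul_index hHC).symm⟩
  have hmemC : g⁻¹ * x ^ r * g ∈ C := Subgroup.mem_centralizer_singleton_iff.2 (by
    rw [hd]
    calc g⁻¹ * x ^ r * g * (g⁻¹ * x ^ s * g) = g⁻¹ * (x ^ r * x ^ s) * g := by group
      _ = g⁻¹ * (x ^ s * x ^ r) * g := by rw [← pow_add, ← pow_add, add_comm]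
      _ = _ := by group)
  obtain ⟨⟨c, hcC⟩, hc⟩ := exists_conj_mem ((diagIn E).subgroupOf C) hs hidx (y := ⟨_, hmemC⟩) (Subtype.ext (by
    show (g⁻¹ * x ^ r * g) ^ s = 1
    have := conj_pow (a := g⁻¹) (b := x ^ r) (i := s)
    rw [inv_inv] at this
    rw [this, ← pow_mul, hx, mul_one, inv_mul_cancel]))
  refine ⟨g * c, mem_of_pow_mem (diagIn E) ((Nat.coprime_primes hr hs).2 hrs) ?_ ?_⟩
  · have h := conj_pow (a := (g * c)⁻¹) (b := x) (i := r)
    rw [inv_inv] at h
    rw [h, show (g * c)⁻¹ * x ^ r * (g * c) = c⁻¹ * (g⁻¹ * x ^ r * g) * c by group]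
    exact hc
  · have h := conj_pow (a := (g * c)⁻¹) (b := x) (i := s)
    rw [inv_inv] at h
    have hcd := Subgroup.mem_centralizer_singleton_iff.1 hcC
    rw [h, show (g * c)⁻¹ * x ^ s * (g * c) = c⁻¹ * d * c by rw [hd]; group, mul_assoc, ← hcd,
      inv_mul_cancel_left]
    exact hg

end finite

section closure

variable {F : Type*} [Field F] [Fintype F]

theorem mapGL_comp {E K : Type*} [Field E] [Field K] (i : F →+* E) (j : E →+* K) (x : GL chevF4.Idx F) :
    mapGL chevF4 j (mapGL chevF4 i x) = mapGL chevF4 (j.comp i) x :=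
  Units.ext (by
    rw [coe_mapGL, coe_mapGL, coe_mapGL, Matrix.map_map]
    rfl)

/-- The extension of degree `24` inside an algebraically closed field. -/
theorem exists_extension {K : Type*} [Field K] [IsAlgClosed K] [Algebra F K] :
    ∃ (E : Type) (_ : Field E) (_ : Fintype E) (i : F →+* E) (j : E →+* K),
      Fintype.card E = Fintype.card F ^ 24 ∧ j.comp i = algebraMap F K := by
  classical
  obtain ⟨p, _⟩ := CharP.exists F
  haveI : Fact p.Prime := ⟨CharP.char_is_prime F p⟩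
  let E := FiniteField.Extension F p 24
  haveI : Fintype E := Fintype.ofFinite E
  haveI : FiniteDimensional F E := inferInstance
  let j : E →ₐ[F] K := IsAlgClosed.lift
  refine ⟨E, inferInstance, inferInstance, algebraMap F E, j.toRingHom, ?_, RingHom.ext fun a => j.commutes a⟩
  rw [← Nat.card_eq_fintype_card, FiniteField.natCard_extension, Nat.card_eq_fintype_card]

/-- An element whose order is a product of two suitable primes is conjugate into the torus over the closure. -/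
theorem exists_torus_two {K : Type*} [Field K] [IsAlgClosed K] [Algebra F K] {r s : ℕ} (hr : r.Prime) (hs : s.Prime)
    (hrs : r ≠ s) (hr5 : 5 ≤ r) (hs5 : 5 ≤ s) (hrQ : r ∣ Fintype.card F ^ 24 - 1)
    (hsQ : s ∣ Fintype.card F ^ 24 - 1) {x : GL chevF4.Idx F} (hxG : x ∈ chevF4.group F) (hx : x ^ (r * s) = 1) :
    ∃ g ∈ chevF4.group K, ∃ z, g * goodF4.torus z * g⁻¹ = mapGL chevF4 (algebraMap F K) x := by
  obtain ⟨E, _, _, i, j, hcard, hji⟩ := exists_extension (F := F) (K := K)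
  obtain ⟨g, hg⟩ := exists_conj_diagIn_two hr hs hrs hr5 hs5 (hcard ▸ hrQ) (hcard ▸ hsQ)
    (x := ⟨mapGL chevF4 i x, mapGL_mem_group i hxG⟩) (Subtype.ext (by
      show mapGL chevF4 i x ^ (r * s) = 1
      rw [← map_pow, hx, map_one]))
  obtain ⟨z, hz⟩ := goodF4.mem_diagonal.1 (mapGL_diagonal goodF4 j hg)
  refine ⟨mapGL chevF4 j g, mapGL_mem_group j g.2, z, ?_⟩
  rw [← hz, ← hji, ← mapGL_comp i j x]
  show mapGL chevF4 j g * mapGL chevF4 j ((g : GL chevF4.Idx E)⁻¹ * mapGL chevF4 i x * g) * (mapGL chevF4 j g)⁻¹ = _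
  rw [map_mul, map_mul, map_inv]
  group

/-- An element of suitable prime order is conjugate into the torus over the closure. -/
theorem exists_torus_one {K : Type*} [Field K] [IsAlgClosed K] [Algebra F K] {s : ℕ} (hs : s.Prime) (hs5 : 5 ≤ s)
    (hsQ : s ∣ Fintype.card F ^ 24 - 1) {x : GL chevF4.Idx F} (hxG : x ∈ chevF4.group F) (hx : x ^ s = 1) :
    ∃ g ∈ chevF4.group K, ∃ z, g * goodF4.torus z * g⁻¹ = mapGL chevF4 (algebraMap F K) x := by
  obtain ⟨E, _, _, i, j, hcard, hji⟩ := exists_extension (F := F) (K := K)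
  obtain ⟨g, hg⟩ := exists_conj_mem (diagIn E) hs (not_dvd_index_diagIn hs hs5 (hcard ▸ hsQ))
    (y := ⟨mapGL chevF4 i x, mapGL_mem_group i hxG⟩) (Subtype.ext (by
      show mapGL chevF4 i x ^ s = 1
      rw [← map_pow, hx, map_one]))
  obtain ⟨z, hz⟩ := goodF4.mem_diagonal.1 (mapGL_diagonal goodF4 j hg)
  refine ⟨mapGL chevF4 j g, mapGL_mem_group j g.2, z, ?_⟩
  rw [← hz, ← hji, ← mapGL_comp i j x]
  show mapGL chevF4 j g * mapGL chevF4 j ((g : GL chevF4.Idx E)⁻¹ * mapGL chevF4 i x * g) * (mapGL chevF4 j g)⁻¹ = _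
  rw [map_mul, map_mul, map_inv]
  group

end closure

end Cfsg.Agent.H48.F4Graph
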