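import Cfsg.Agent.H48.F4Graph.WeylFacts
import Cfsg.Agent.H67.ChevTorusLang

/-!
# Twisted torus elements of F4: the arithmetic and the regularity
-/

set_option autoImplicit false

namespace Cfsg.Agent.H48.F4Graph

open Cfsg.Lie Cfsg.Agent.H46 Cfsg.Agent.H65
open Cfsg.Agent.H67.Chev hiding mem_fixDiag
open scoped Matrix MatrixGroups

variable {K : Type*} [Field K]

/-- The value of a torus element on a lattice vector. -/
noncomputable def charVal (z : Fin chevF4.rank → Kˣ) (v : Fin chevF4.rank → ℤ) : Kˣ :=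
  ∏ k : Fin chevF4.rank, z k ^ goodF4.cartForm k v

theorem torusVal_eq (z : Fin chevF4.rank → Kˣ) (s : ℕ) :
    goodF4.torusVal z s = charVal z (goodF4.rc s) := rfl

theorem charVal_add (z : Fin chevF4.rank → Kˣ) (u v : Fin chevF4.rank → ℤ) :
    charVal z (u + v) = charVal z u * charVal z v := by
  simp only [charVal, goodF4.cartForm_add, zpow_add, Finset.prod_mul_distrib]

theorem charVal_smul (z : Fin chevF4.rank → Kˣ) (a : ℤ) (v : Fin chevF4.rank → ℤ) :
    charVal z (a • v) = charVal z v ^ a := by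
  simp only [charVal, goodF4.cartForm_smul, mul_comm a, zpow_mul, Finset.prod_zpow]

theorem charVal_zero (z : Fin chevF4.rank → Kˣ) : charVal z 0 = 1 := by
  simpa using charVal_smul z 0 0

theorem charVal_sub (z : Fin chevF4.rank → Kˣ) (u v : Fin chevF4.rank → ℤ) :
    charVal z (u - v) = charVal z u * (charVal z v)⁻¹ := by
  rw [eq_mul_inv_iff_mul_eq, ← charVal_add, sub_add_cancel]

theorem charVal_sum {ι : Type*} (z : Fin chevF4.rank → Kˣ) (S : Finset ι) (f : ι → Fin chevF4.rank → ℤ) :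
    charVal z (∑ i ∈ S, f i) = ∏ i ∈ S, charVal z (f i) := by
  classical
  induction S using Finset.induction_on with
  | empty => simpa using charVal_zero z
  | insert b S hb ih => rw [Finset.sum_insert hb, Finset.prod_insert hb, charVal_add, ih]

theorem charVal_pow (z : Fin chevF4.rank → Kˣ) (n : ℕ) (v : Fin chevF4.rank → ℤ) :
    charVal (z ^ n) v = charVal z v ^ n := by
  induction n with
  | zero => simp [charVal]
  | succ n ih =>
    rw [pow_succ, pow_succ, ← ih]
    simp only [charVal, Pi.mul_apply, mul_zpow, Finset.prod_mul_distrib]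

theorem eq_sum_single (v : Fin chevF4.rank → ℤ) : v = ∑ j, v j • goodF4.rc (chevF4.simple j) := by
  funext k
  rw [Finset.sum_apply, Finset.sum_eq_single k]
  · rw [goodF4.rc_simple k.2]; simp
  · intro j _ hj
    rw [goodF4.rc_simple j.2]; simp [Ne.symm hj]
  · simp

/-- Two additive families agreeing on simple roots agree. -/
theorem charVal_ext {z z' : Fin chevF4.rank → Kˣ}
    (f : (Fin chevF4.rank → ℤ) ≃ₗ[ℤ] (Fin chevF4.rank → ℤ))
    (h : ∀ j : Fin chevF4.rank, charVal z (f (goodF4.rc (chevF4.simple j))) = charVal z' (goodF4.rc (chevF4.simple j)))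
    (v : Fin chevF4.rank → ℤ) : charVal z (f v) = charVal z' v := by
  rw [eq_sum_single v, map_sum, charVal_sum, charVal_sum]
  exact Finset.prod_congr rfl fun j _ => by rw [map_smul, charVal_smul, charVal_smul, h]

theorem torus_eq_one_of_charVal {z : Fin chevF4.rank → Kˣ} (h : ∀ v, charVal z v = 1) : goodF4.torus z = 1 :=
  (goodF4.torus_eq_one_iff z).2 fun s _ => by rw [torusVal_eq]; exact h _

theorem charVal_pow_eq_one {z : Fin chevF4.rank → Kˣ} {n : ℕ} (h : goodF4.torus z ^ n = 1)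
    (v : Fin chevF4.rank → ℤ) : charVal z v ^ n = 1 := by
  rw [← map_pow, goodF4.torus_eq_one_iff] at h
  rw [← charVal_pow, eq_sum_single v, charVal_sum]
  exact Finset.prod_eq_one fun j _ => by
    rw [charVal_smul, ← torusVal_eq, h _ (goodF4.simple_lt j.2), one_zpow]

/-- Conjugate torus elements differ by an element of the Weyl group. -/
theorem exists_word_of_conj {z z' : Fin chevF4.rank → Kˣ} {h : GL chevF4.Idx K} (hh : h ∈ chevF4.group K)
    (hc : goodF4.torus z * h = h * goodF4.torus z') :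
    ∃ L : List (Fin chevF4.rank), ∀ v, charVal z (linOf L v) = charVal z' v := by
  obtain ⟨L, v, d, u, hv, hd, hu, rfl⟩ := exists_standard_form goodF4 hh
  set n : GL chevF4.Idx K := goodF4.nProd L
  have hN : n ∈ chevF4.monomialSubgroup K := goodF4.nProd_mem L
  set t := goodF4.torus z
  set t' := goodF4.torus z'
  have ht : t ∈ chevF4.diagonalSubgroup K := goodF4.mem_diagonal.2 ⟨z, rfl⟩
  have ht' : t' ∈ chevF4.diagonalSubgroup K := goodF4.mem_diagonal.2 ⟨z', rfl⟩
  have hv' : t * v * t⁻¹ ∈ chevF4.posUnipotent K := goodF4.conj_posUnipotent (Subgroup.mem_sup_right ht) hv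
  have hu' : t' * u * t'⁻¹ ∈ goodF4.posSub (goodF4.invSet n) := by
    have hN' := goodF4.torus_mem_normalizer_gen (F := K) (S := fun r => chevF4.IsPosRoot r ∧ r ∈ goodF4.invSet n)
      (fun r h => h.1.1) z'
    have e : goodF4.posSub (F := K) (goodF4.invSet n) = Subgroup.closure {g : GL chevF4.Idx K | ∃ (r : ℕ) (t : K),
        (chevF4.IsPosRoot r ∧ r ∈ goodF4.invSet n) ∧
          (g : Matrix chevF4.Idx chevF4.Idx K) = chevF4.x K r t} := by
      refine le_antisymm (Subgroup.closure_mono ?_) ((Subgroup.closure_le _).2 ?_)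
      · rintro g ⟨r, t, h, rfl⟩; exact ⟨r, t, h, goodF4.coe_xg r t⟩
      · rintro g ⟨r, t, h, hg⟩; rw [goodF4.eq_xg hg]; exact goodF4.xg_mem_posSub h.1 h.2 t
    rw [e] at hu ⊢
    exact (Subgroup.mem_normalizer_iff.1 hN' u).1 hu
  have e : (t * v * t⁻¹) * (t * d * (n * t'⁻¹ * n⁻¹)) * n * (t' * u * t'⁻¹) = v * d * n * u := by
    calc _ = t * (v * d * n * u) * t'⁻¹ := by group
      _ = _ := by rw [hc, mul_inv_cancel_right]
  have hd' : t * d * (n * t'⁻¹ * n⁻¹) ∈ chevF4.diagonalSubgroup K :=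
    mul_mem (mul_mem ht hd) (goodF4.diagonal_normalized hN (inv_mem ht'))
  obtain ⟨-, -, hb⟩ := goodF4.bruhat_unique (mul_mem (Subgroup.mem_sup_left hv') (Subgroup.mem_sup_right hd'))
    (mul_mem (Subgroup.mem_sup_left hv) (Subgroup.mem_sup_right hd)) hN hN hu' hu e
  have hb' := hb rfl
  have h1 := (Subgroup.eq_bot_iff_forall _).1 (goodF4.posUnipotent_inf_diagonal (F := K)) (v⁻¹ * (t * v * t⁻¹))
    (Subgroup.mem_inf.2 ⟨mul_mem (inv_mem hv) hv', by
      rw [show v⁻¹ * (t * v * t⁻¹) = d * (t * d * (n * t'⁻¹ * n⁻¹))⁻¹ from by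
        rw [eq_mul_inv_iff_mul_eq, mul_assoc v⁻¹, hb', inv_mul_cancel_left]]
      exact mul_mem hd (inv_mem hd')⟩)
  rw [← (inv_mul_eq_one.1 h1)] at hb'
  have hdd := mul_left_cancel hb'
  have htd : t * d = d * t := goodF4.diagonal_comm ht hd
  have hn : n * t' * n⁻¹ = t := by
    rw [htd, mul_assoc] at hdd
    have h2 : t * (n * t'⁻¹ * n⁻¹) = 1 := mul_left_cancel (hdd.trans (mul_one d).symm)
    calc n * t' * n⁻¹ = (n * t'⁻¹ * n⁻¹)⁻¹ := by group
      _ = t := (eq_inv_of_mul_eq_one_left h2).symm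
  refine ⟨L, charVal_ext (linOf L) fun j => ?_⟩
  have h2 := torusVal_conj (G := goodF4) hN z' z (goodF4.simpleF j) hn
  rw [goodF4.perm_nProd, torusVal_eq, torusVal_eq, rc_prod] at h2
  exact h2

/-- The twist relation. -/
def Twisted (z : Fin chevF4.rank → Kˣ) (q : ℕ) (L : List (Fin chevF4.rank)) : Prop :=
  ∀ v, charVal z (linOf L v) = charVal z v ^ q

/-- The value of a quartic. -/
def quarticVal (c : ℤ × ℤ × ℤ × ℤ) (q : ℤ) : ℤ :=
  q ^ 4 + c.2.2.2 * q ^ 3 + c.2.2.1 * q ^ 2 + c.2.1 * q + c.1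

theorem dvd_quarticVal {z : Fin chevF4.rank → Kˣ} {q r : ℕ} {L : List (Fin chevF4.rank)} (hL : Twisted z q L)
    (hr : r.Prime) (hz : goodF4.torus z ^ r = 1) (hz1 : goodF4.torus z ≠ 1) (W : Facts L) :
    (r : ℤ) ∣ quarticVal (polyC W.kind) q := by
  obtain ⟨v, hv⟩ : ∃ v, charVal z v ≠ 1 := by
    by_contra h
    push Not at h
    exact hz1 (torus_eq_one_of_charVal h)
  have hord : orderOf (charVal z v) = r :=
    haveI := Fact.mk hr
    orderOf_eq_prime (charVal_pow_eq_one hz v) hv
  have hL' : ∀ v, charVal z (linOf L v) = charVal z v ^ (q : ℤ) := fun v => by rw [zpow_natCast]; exact hL v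
  have h := congrArg (charVal z) (W.annih v)
  simp only [quartic, charVal_add, charVal_smul, charVal_zero, hL', ← zpow_mul, ← zpow_add] at h
  rw [← hord, orderOf_dvd_iff_zpow_eq_one]
  refine Eq.trans ?_ h
  congr 1
  unfold quarticVal
  ring

theorem zmod3_sq : ∀ y : ZMod 3, y ^ 2 ≠ 2 := by decide

/-- The orders allowed by the five quartics. -/
def allowed : ℕ → Finset ℕ
  | 1 => {1, 2, 4}
  | 2 => {8}
  | 3 => {12}
  | 4 => {1, 2, 3}
  | _ => {1, 2, 6}

theorem orderOf_mem_allowed {r q i : ℕ} [hr : Fact r.Prime] (hr2 : r ≠ 2) (hi : 1 ≤ i ∧ i ≤ 5)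
    (h : (r : ℤ) ∣ quarticVal (polyC i) q) : orderOf (q : ZMod r) ∈ allowed i := by
  have h2 : (2 : ZMod r) ≠ 0 := fun e => hr2 ((Nat.prime_dvd_prime_iff_eq hr.out Nat.prime_two).1
    ((ZMod.natCast_eq_zero_iff 2 r).1 (by exact_mod_cast e)))
  rw [← ZMod.intCast_zmod_eq_zero_iff_dvd] at h
  set x : ZMod r := (q : ZMod r) with hx
  obtain ⟨hi1, hi5⟩ := hi
  interval_cases i <;> simp only [quarticVal, polyC] at h <;> push_cast at h <;> rw [← hx] at h
  · have h4 : x ^ 4 = 1 := by linear_combination h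
    have := (Nat.mem_divisors.2 ⟨orderOf_dvd_of_pow_eq_one h4, by norm_num⟩ : orderOf x ∈ Nat.divisors 4)
    rw [show Nat.divisors 4 = {1, 2, 4} by decide] at this
    exact this
  · have h4 : x ^ 4 = -1 := by linear_combination h
    have h8 : x ^ (2 ^ 3) = 1 := by linear_combination (x ^ 4 - 1) * h4
    have hne : ¬ x ^ (2 ^ 2) = 1 := fun e => h2 (by linear_combination h4 - e)
    haveI := Fact.mk Nat.prime_two
    simp [allowed, orderOf_eq_prime_pow hne h8]
  · have h6 : x ^ 6 = -1 := by linear_combination (x ^ 2 + 1) * h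
    have h12 : x ^ 12 = 1 := by linear_combination (x ^ 6 - 1) * h6
    have hne : ¬ x ^ 6 = 1 := fun e => h2 (by linear_combination h6 - e)
    have hne4 : ¬ x ^ 4 = 1 := fun e => by
      have hx2 : x ^ 2 = 2 := by linear_combination e - h
      have h3 : (3 : ZMod r) = 0 := by linear_combination e - (x ^ 2 + 2) * hx2
      have : r = 3 := (Nat.prime_dvd_prime_iff_eq hr.out Nat.prime_three).1
        ((ZMod.natCast_eq_zero_iff 3 r).1 (by exact_mod_cast h3))
      subst this
      exact zmod3_sq x hx2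
    have hd := orderOf_dvd_of_pow_eq_one h12
    have hmem : orderOf x ∈ Nat.divisors 12 := Nat.mem_divisors.2 ⟨hd, by norm_num⟩
    rw [show Nat.divisors 12 = {1, 2, 3, 4, 6, 12} by decide] at hmem
    simp only [Finset.mem_insert, Finset.mem_singleton] at hmem
    simp only [allowed, Finset.mem_singleton]
    rcases hmem with e | e | e | e | e | e
    · exact absurd (orderOf_dvd_iff_pow_eq_one.1 (e ▸ (by norm_num))) hne
    · exact absurd (orderOf_dvd_iff_pow_eq_one.1 (e ▸ (by norm_num))) hne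
    · exact absurd (orderOf_dvd_iff_pow_eq_one.1 (e ▸ (by norm_num))) hne
    · exact absurd (orderOf_dvd_iff_pow_eq_one.1 (e ▸ (by norm_num))) hne4
    · exact absurd (orderOf_dvd_iff_pow_eq_one.1 (e ▸ (by norm_num))) hne
    · exact e
  · have h6 : x ^ 6 = 1 := by linear_combination (x ^ 2 - x + 1) * h
    have hmem : orderOf x ∈ Nat.divisors 6 := Nat.mem_divisors.2 ⟨orderOf_dvd_of_pow_eq_one h6, by norm_num⟩
    rw [show Nat.divisors 6 = {1, 2, 3, 6} by decide] at hmem
    simp only [Finset.mem_insert, Finset.mem_singleton] at hmem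
    simp only [allowed, Finset.mem_insert, Finset.mem_singleton]
    rcases hmem with e | e | e | e
    · exact Or.inl e
    · exact Or.inr (Or.inl e)
    · exact Or.inr (Or.inr e)
    · exfalso
      have h3 : x ^ 3 ≠ 1 := fun h3 => by
        have := orderOf_dvd_of_pow_eq_one h3
        rw [e] at this; norm_num at this
      have h3' : x ^ 3 = -1 := ((mul_self_eq_one_iff).1 (by rw [← pow_add]; exact h6)).resolve_left h3
      have hq : x + 1 = 0 := by
        have : 2 * (x + 1) = 0 := by linear_combination (x + 1) * h3' - h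
        exact (mul_eq_zero.1 this).resolve_left h2
      have h2' := orderOf_dvd_of_pow_eq_one (show x ^ 2 = 1 by linear_combination (x - 1) * hq)
      rw [e] at h2'; norm_num at h2'
  · have h6 : x ^ 6 = 1 := by linear_combination (x ^ 2 + x + 1) * h
    have hmem : orderOf x ∈ Nat.divisors 6 := Nat.mem_divisors.2 ⟨orderOf_dvd_of_pow_eq_one h6, by norm_num⟩
    rw [show Nat.divisors 6 = {1, 2, 3, 6} by decide] at hmem
    simp only [Finset.mem_insert, Finset.mem_singleton] at hmem
    simp only [allowed, Finset.mem_insert, Finset.mem_singleton]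
    rcases hmem with e | e | e | e
    · exact Or.inl e
    · exact Or.inr (Or.inl e)
    · exfalso
      have h3 : x ^ 3 = 1 := e ▸ pow_orderOf_eq_one x
      have hq : x - 1 = 0 := by
        have : 2 * (x - 1) = 0 := by linear_combination h - (x - 1) * h3
        exact (mul_eq_zero.1 this).resolve_left h2
      have h1' := orderOf_dvd_of_pow_eq_one (show x ^ 1 = 1 by linear_combination hq)
      rw [e] at h1'; norm_num at h1'
    · exact Or.inr (Or.inr e)

/-- Cramer's rule for four integer vectors. -/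
theorem cramer4 (v : Fin 4 → Fin 4 → ℤ) (j : Fin 4) :
    ∃ c : Fin 4 → ℤ, det4 (v 0 0, v 0 1, v 0 2, v 0 3) (v 1 0, v 1 1, v 1 2, v 1 3) (v 2 0, v 2 1, v 2 2, v 2 3)
      (v 3 0, v 3 1, v 3 2, v 3 3) • (Pi.single j 1 : Fin 4 → ℤ) = ∑ i, c i • v i := by
  refine ⟨fun i => (Matrix.of v).adjugate j i, ?_⟩
  have hdet : (Matrix.of v).det = det4 (v 0 0, v 0 1, v 0 2, v 0 3) (v 1 0, v 1 1, v 1 2, v 1 3)
      (v 2 0, v 2 1, v 2 2, v 2 3) (v 3 0, v 3 1, v 3 2, v 3 3) := by
    rw [Matrix.det_succ_row_zero]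
    simp [Fin.sum_univ_succ, Matrix.det_fin_three, Matrix.submatrix_apply, det4, Fin.succAbove]
    ring
  rw [← hdet]
  funext k
  have h := congrFun (congrFun (Matrix.adjugate_mul (Matrix.of v)) j) k
  rw [Matrix.mul_apply, Matrix.smul_apply, Matrix.one_apply] at h
  simp only [Pi.smul_apply, smul_eq_mul, Pi.single_apply, Finset.sum_apply]
  refine Eq.trans ?_ h.symm
  simp only [smul_eq_mul, eq_comm (a := j)]

/-- Elements of prime order whose order of `q` is `8` or `12` are regular. -/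
theorem regular_of_kind {z : Fin chevF4.rank → Kˣ} {q s : ℕ} {L : List (Fin chevF4.rank)} (hL : Twisted z q L)
    (hs : s.Prime) (hs2 : s ≠ 2) (hz : goodF4.torus z ^ s = 1) (hz1 : goodF4.torus z ≠ 1) (W : Facts L)
    (hk : W.kind = 2 ∨ W.kind = 3) (b : Fin chevF4.nroots) : charVal z (goodF4.rc b) ≠ 1 := by
  intro hb
  apply hz1
  have hW := W.index hk b
  generalize hg0 : goodF4.rc (b : ℕ) = v0 at hW hb
  have h1 : charVal z (linOf L v0) = 1 := by rw [hL, hb, one_pow]
  have h2 : charVal z (linOf L (linOf L v0)) = 1 := by rw [hL, h1, one_pow]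
  have h3 : charVal z (linOf L (linOf L (linOf L v0))) = 1 := by rw [hL, h2, one_pow]
  generalize linOf L (linOf L (linOf L v0)) = v3 at hW h3
  generalize linOf L (linOf L v0) = v2 at hW h2
  generalize linOf L v0 = v1 at hW h1
  obtain ⟨e, hD⟩ : ∃ e : ℕ, (det4 (toV v0) (toV v1) (toV v2) (toV v3)).natAbs = 2 ^ e := by
    simp only [smallPow, Bool.or_eq_true, beq_iff_eq] at hW
    rcases hW with ((h | h) | h) | h
    exacts [⟨0, h⟩, ⟨1, h⟩, ⟨2, h⟩, ⟨3, h⟩]
  refine torus_eq_one_of_charVal fun v => ?_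
  rw [eq_sum_single v, charVal_sum]
  refine Finset.prod_eq_one fun j _ => ?_
  rw [charVal_smul]
  suffices charVal z (goodF4.rc (chevF4.simple j)) = 1 by rw [this, one_zpow]
  obtain ⟨c, hc⟩ := cramer4 ![v0, v1, v2, v3] j
  have hrow : det4 (toV v0) (toV v1) (toV v2) (toV v3) • goodF4.rc (chevF4.simple j) =
      c 0 • v0 + c 1 • v1 + c 2 • v2 + c 3 • v3 := by
    rw [goodF4.rc_simple j.2]
    rw [Fin.sum_univ_four] at hc
    exact hc
  have hk1 : charVal z (goodF4.rc (chevF4.simple j)) ^ det4 (toV v0) (toV v1) (toV v2) (toV v3) = 1 := by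
    rw [← charVal_smul, hrow]
    simp only [charVal_add, charVal_smul, hb, h1, h2, h3, one_zpow, one_mul]
  have hk2 := pow_natAbs_eq_one.2 hk1
  rw [hD, ← orderOf_dvd_iff_pow_eq_one] at hk2
  have hk3 := orderOf_dvd_of_pow_eq_one (charVal_pow_eq_one hz (goodF4.rc (chevF4.simple j)))
  have hco : Nat.Coprime s (2 ^ e) := ((Nat.coprime_primes hs Nat.prime_two).2 hs2).pow_right e
  exact orderOf_eq_one_iff.1 (Nat.eq_one_of_dvd_coprimes hco hk3 hk2)

/-- The centraliser of such an element lies in the torus. -/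
theorem mem_diagonal_of_commute {z : Fin chevF4.rank → Kˣ} {s : ℕ} (hs : s.Prime) (hs5 : 5 ≤ s)
    (hz : goodF4.torus z ^ s = 1) (hreg : ∀ b : Fin chevF4.nroots, charVal z (goodF4.rc b) ≠ 1)
    {m : GL chevF4.Idx K} (hm : m ∈ chevF4.group K) (hc : goodF4.torus z * m = m * goodF4.torus z) :
    m ∈ chevF4.diagonalSubgroup K := by
  obtain ⟨hmN, hval⟩ := regular_centralizer (G := goodF4) z
    (fun b hb => by rw [torusVal_eq]; exact hreg ⟨b, hb⟩) hm hc
  obtain ⟨L, d, hd, rfl⟩ := goodF4.exists_word hmN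
  have hperm : goodF4.perm (goodF4.nProd L * d) = (L.map goodF4.sPerm).prod := by
    rw [goodF4.perm_mul (goodF4.nProd_mem L) (Subgroup.mem_sup_left hd), goodF4.perm_diagonal hd, mul_one,
      goodF4.perm_nProd]
  have hinv : ∀ v, charVal z (linOf L v) = charVal z v := charVal_ext (linOf L) fun j => by
    have h := hval (goodF4.simpleF j)
    rw [hperm, torusVal_eq, torusVal_eq, rc_prod] at h
    exact h
  obtain ⟨W⟩ := nonempty_facts L
  rcases W.moved with hid | ⟨x, b, k, hk1, hk3, hx⟩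
  · refine (goodF4.perm_eq_one_iff hmN).1 (Equiv.ext fun s => Fin.ext (goodF4.rc_injective (Fin.isLt _) s.2 ?_))
    rw [hperm, rc_prod, hid]
    rfl
  · exfalso
    refine hreg b ?_
    have hbk : charVal z (goodF4.rc b) ^ k = 1 := by
      rw [← zpow_natCast, ← charVal_smul, ← hx, charVal_sub, hinv, mul_inv_cancel]
    rw [← orderOf_dvd_iff_pow_eq_one] at hbk
    have hbs := orderOf_dvd_of_pow_eq_one (charVal_pow_eq_one hz (goodF4.rc b))
    have hco : Nat.Coprime s k := hs.coprime_iff_not_dvd.2 fun h => by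
      have := Nat.le_of_dvd hk1 h; omega
    exact orderOf_eq_one_iff.1 (Nat.eq_one_of_dvd_coprimes hco hbs hbk)

end Cfsg.Agent.H48.F4Graph
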