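import Cfsg.Agent.H48.F4Graph.WeylDefs

/-!
# Kernel checks on the table of the Weyl group of type F4, second half
-/

set_option autoImplicit false
set_option maxRecDepth 100000

namespace Cfsg.Agent.H48.F4Graph

theorem chk_chunks_3 : ((List.range' 18 6).all fun b => (weylData.getD b []).all chkEntry) = true := by decide +kernel
theorem chk_chunks_4 : ((List.range' 24 6).all fun b => (weylData.getD b []).all chkEntry) = true := by decide +kernel
theorem chk_chunks_5 : ((List.range' 30 6).all fun b => (weylData.getD b []).all chkEntry) = true := by decide +kernel

end Cfsg.Agent.H48.F4Graph
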