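import Cfsg.Agent.H48.F4Graph.WeylCheckA
import Cfsg.Agent.H48.F4Graph.WeylCheckB

/-!
# Every entry of the table of the Weyl group of type F4 passes the checks
-/

set_option autoImplicit false
set_option maxRecDepth 100000

namespace Cfsg.Agent.H48.F4Graph

theorem weylData_shape : weylData.length = 36 ∧ matOf (getW 0) = idM ∧
    (weylData.getD 0 []).getD 0 0 ∈ weylData.getD 0 [] := by decide +kernel

/-- Every looked-up entry passes the checks. -/
theorem chk_getW (k : ℕ) : chkEntry (getW k) = true := by
  have hall : ∀ b < 36, (weylData.getD b []).all chkEntry = true := by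
    intro b hb
    have h : ∀ (s : ℕ), ((List.range' s 6).all fun b => (weylData.getD b []).all chkEntry) = true →
        s ≤ b → b < s + 6 → (weylData.getD b []).all chkEntry = true := fun s hs h1 h2 => by
      rw [List.all_eq_true] at hs
      exact hs b (List.mem_range'_1.2 ⟨h1, h2⟩)
    rcases Nat.lt_or_ge b 6 with h6 | h6
    · exact h 0 (by rw [← List.range_eq_range']; exact chk_chunks_0) (by omega) (by omega)
    rcases Nat.lt_or_ge b 12 with h12 | h12
    · exact h 6 chk_chunks_1 h6 h12
    rcases Nat.lt_or_ge b 18 with h18 | h18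
    · exact h 12 chk_chunks_2 h12 h18
    rcases Nat.lt_or_ge b 24 with h24 | h24
    · exact h 18 chk_chunks_3 h18 h24
    rcases Nat.lt_or_ge b 30 with h30 | h30
    · exact h 24 chk_chunks_4 h24 h30
    · exact h 30 chk_chunks_5 h30 (by omega)
  have hdef : chkEntry ((weylData.getD 0 []).getD 0 0) = true :=
    List.all_eq_true.1 (hall 0 (by norm_num)) _ weylData_shape.2.2
  rw [getW]
  by_cases hb : k / 32 < 36
  · by_cases hi : k % 32 < (weylData.getD (k / 32) []).length
    · rw [List.getD_eq_getElem _ _ hi]
      exact List.all_eq_true.1 (hall _ hb) _ (List.getElem_mem hi)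
    · rw [List.getD_eq_default _ _ (not_lt.1 hi)]
      exact hdef
  · rw [List.getD_eq_default weylData [] (by rw [weylData_shape.1]; omega), List.getD_nil]
    exact hdef

end Cfsg.Agent.H48.F4Graph
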