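import Cfsg.Agent.H46.TypeF4
import Cfsg.Agent.H46.Weyl
import Cfsg.Agent.H48.F4Graph.WeylCheck

/-!
# Facts about every element of the Weyl group of type F4
-/

set_option autoImplicit false
set_option maxRecDepth 100000

namespace Cfsg.Agent.H48.F4Graph

open Cfsg.Lie Cfsg.Agent.H46

/-- The coordinates as a tuple. -/
def toV (v : Fin chevF4.rank → ℤ) : V4 := (v (0 : Fin 4), v (1 : Fin 4), v (2 : Fin 4), v (3 : Fin 4))

theorem toV_injective : Function.Injective toV := by
  intro v w h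
  simp only [toV, Prod.mk.injEq] at h
  obtain ⟨h0, h1, h2, h3⟩ := h
  funext k
  show v (k : Fin 4) = w (k : Fin 4)
  change Fin 4 at k
  fin_cases k <;> assumption

theorem toV_add (u v : Fin chevF4.rank → ℤ) : toV (u + v) = toV u + toV v := rfl

theorem toV_sub (u v : Fin chevF4.rank → ℤ) : toV (u - v) = toV u - toV v := rfl

theorem toV_smul (a : ℤ) (v : Fin chevF4.rank → ℤ) : toV (a • v) = a • toV v := rfl

theorem comb_eq (a : ℤ) (v : V4) (b : ℤ) (w : V4) : comb a v b w = a • v + b • w := rfl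

theorem cm_F4 : ∀ i k : Fin 4, goodF4.tab.cm (i : ℕ) (k : ℕ) =
    (![![2, -1, 0, 0], ![-1, 2, -2, 0], ![0, -1, 2, -1], ![0, 0, -1, 2]] : Fin 4 → Fin 4 → ℤ) i k := by
  decide +kernel

theorem cartForm_F4 (i : Fin 4) (v : Fin chevF4.rank → ℤ) :
    goodF4.cartForm (i : ℕ) v =
      ![2 * v (0 : Fin 4) - v (1 : Fin 4), -v (0 : Fin 4) + 2 * v (1 : Fin 4) - 2 * v (2 : Fin 4),
        -v (1 : Fin 4) + 2 * v (2 : Fin 4) - v (3 : Fin 4), -v (2 : Fin 4) + 2 * v (3 : Fin 4)] i := by
  show ∑ k : Fin 4, v k * goodF4.tab.cm (i : ℕ) (k : ℕ) = _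
  simp only [cm_F4, Fin.sum_univ_four]
  fin_cases i <;> simp <;> ring

theorem toV_refl (i : Fin chevF4.rank) (v : Fin chevF4.rank → ℤ) :
    toV (goodF4.reflLin i v) = refl4 i (toV v) := by
  have h' : ∀ j, goodF4.reflLin i v j = v j - goodF4.cartForm (i : ℕ) v * (if j = i then 1 else 0) := by
    intro j
    show ((v - goodF4.cartForm (i : ℕ) v • Pi.single i (1 : ℤ) : Fin chevF4.rank → ℤ)) j = _
    simp [Pi.single_apply]
  change Fin 4 at i
  have h : ∀ j : Fin 4, goodF4.reflLin i v j = v j - goodF4.cartForm (i : ℕ) v * (if j = i then 1 else 0) := h'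
  simp only [toV, h, cartForm_F4]
  fin_cases i <;> simp [refl4]

/-- The linear map of a word. -/
noncomputable def linOf (L : List (Fin chevF4.rank)) : (Fin chevF4.rank → ℤ) ≃ₗ[ℤ] (Fin chevF4.rank → ℤ) :=
  (L.map goodF4.reflLin).prod

theorem linOf_cons (i : Fin chevF4.rank) (L : List (Fin chevF4.rank)) (v : Fin chevF4.rank → ℤ) :
    linOf (i :: L) v = goodF4.reflLin i (linOf L v) := rfl

theorem linOf_nil (v : Fin chevF4.rank → ℤ) : linOf [] v = v := rfl

theorem rc_prod (L : List (Fin chevF4.rank)) (s : Fin chevF4.nroots) :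
    goodF4.rc ((L.map goodF4.sPerm).prod s : Fin chevF4.nroots) = linOf L (goodF4.rc s) := by
  induction L with
  | nil => rfl
  | cons i L ih =>
    rw [List.map_cons, List.prod_cons, Equiv.Perm.mul_apply, goodF4.sPerm_apply, linOf_cons,
      goodF4.rc_reflect i.2 (Fin.isLt _), goodF4.cartan_eq (Fin.isLt _) i.2, ih]
    rfl

theorem exists_entry (L : List (Fin chevF4.rank)) :
    ∃ k, ∀ v, toV (linOf L v) = app (matOf (getW k)) (toV v) := by
  induction L with
  | nil =>
    refine ⟨0, fun v => ?_⟩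
    rw [weylData_shape.2.1, linOf_nil]
    simp [app, idM]
  | cons i L ih =>
    obtain ⟨k, hk⟩ := ih
    refine ⟨nextOf (getW k) i, fun v => ?_⟩
    have h := chk_getW k
    simp only [chkEntry, Bool.and_eq_true, List.all_eq_true, List.mem_range, decide_eq_true_eq] at h
    rw [h.1.1.1.1 i i.2, linOf_cons, toV_refl, hk]
    generalize matOf (getW k) = M
    obtain ⟨⟨a0, a1, a2, a3⟩, ⟨b0, b1, b2, b3⟩, ⟨c0, c1, c2, c3⟩, ⟨d0, d1, d2, d3⟩⟩ := M
    obtain ⟨x, y, z, w⟩ := toV v
    change Fin 4 at i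
    fin_cases i <;> simp [refl4, reflM, app, Prod.ext_iff] <;> ring

theorem rootV_eq : ∀ s : Fin 48, toV (goodF4.rc (s : ℕ)) = rootV.getD (s : ℕ) (0, 0, 0, 0) := by
  decide +kernel

/-- The quartic of a kind, applied to a vector. -/
noncomputable def quartic (L : List (Fin chevF4.rank)) (c : ℤ × ℤ × ℤ × ℤ) (v : Fin chevF4.rank → ℤ) :
    Fin chevF4.rank → ℤ :=
  linOf L (linOf L (linOf L (linOf L v))) + c.2.2.2 • linOf L (linOf L (linOf L v)) +
    c.2.2.1 • linOf L (linOf L v) + c.2.1 • linOf L v + c.1 • v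

/-- What is known about every element of the Weyl group. -/
structure Facts (L : List (Fin chevF4.rank)) where
  /-- the kind -/
  kind : ℕ
  kind_le : 1 ≤ kind ∧ kind ≤ 5
  annih : ∀ v, quartic L (polyC kind) v = 0
  moved : (∀ v, linOf L v = v) ∨ ∃ (x : Fin chevF4.rank → ℤ) (b : Fin chevF4.nroots) (k : ℕ),
    1 ≤ k ∧ k ≤ 3 ∧ linOf L x - x = (k : ℤ) • goodF4.rc b
  index : kind = 2 ∨ kind = 3 → ∀ b : Fin chevF4.nroots, smallPow (det4 (toV (goodF4.rc b))
    (toV (linOf L (goodF4.rc b))) (toV (linOf L (linOf L (goodF4.rc b))))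
    (toV (linOf L (linOf L (linOf L (goodF4.rc b)))))) = true

theorem nonempty_facts (L : List (Fin chevF4.rank)) : Nonempty (Facts L) := by
  obtain ⟨k, hk⟩ := exists_entry L
  have h := chk_getW k
  simp only [chkEntry, Bool.and_eq_true, List.all_eq_true, List.mem_range, decide_eq_true_eq] at h
  set M := matOf (getW k)
  obtain ⟨⟨⟨⟨-, hkd⟩, hpoly⟩, hmv⟩, hdet⟩ := h
  refine ⟨⟨kindOf (getW k), hkd, ?_, ?_, ?_⟩⟩
  · intro v
    generalize polyC (kindOf (getW k)) = c at hpoly ⊢
    let Q : (Fin chevF4.rank → ℤ) →ₗ[ℤ] (Fin chevF4.rank → ℤ) :=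
      let f : Module.End ℤ (Fin chevF4.rank → ℤ) := (linOf L).toLinearMap
      f * f * f * f + c.2.2.2 • (f * f * f) + c.2.2.1 • (f * f) + c.2.1 • f + c.1 • 1
    have hQ : ∀ w, Q w = quartic L c w := fun w => rfl
    suffices Q = 0 by rw [← hQ, this]; rfl
    refine (Pi.basisFun ℤ (Fin chevF4.rank)).ext fun j => toV_injective ?_
    rw [hQ, Pi.basisFun_apply]
    have key : ∀ w, chkPoly M c (toV w) = true → toV (quartic L c w) = (0, 0, 0, 0) := by
      intro w hw
      simp only [chkPoly, decide_eq_true_eq, ← hk] at hw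
      simp only [comb_eq] at hw
      simp only [quartic, toV_add, toV_smul]
      refine Eq.trans ?_ hw
      module
    rw [key _ ?_]
    · rfl
    obtain ⟨⟨⟨p0, p1⟩, p2⟩, p3⟩ := hpoly
    change Fin 4 at j
    fin_cases j
    exacts [p0, p1, p2, p3]
  · rw [Bool.or_eq_true] at hmv
    rcases hmv with hid | hmv
    · left
      intro v
      rw [decide_eq_true_eq] at hid
      refine toV_injective ?_
      rw [hk, hid]
      simp [app, idM]
    · simp only [Bool.and_eq_true, decide_eq_true_eq] at hmv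
      obtain ⟨⟨⟨h1, h3⟩, hb⟩, heq⟩ := hmv
      right
      set X := xOf (getW k)
      let x : Fin chevF4.rank → ℤ := (![X.1, X.2.1, X.2.2.1, X.2.2.2] : Fin 4 → ℤ)
      have hx : toV x = X := by simp [toV, x]
      refine ⟨x, ⟨bOf (getW k), hb⟩, kOf (getW k), h1, h3, toV_injective ?_⟩
      have hr := rootV_eq ⟨bOf (getW k), hb⟩
      rw [← hx, ← hk, ← hr] at heq
      simp only [comb_eq, zero_smul, add_zero, one_smul, neg_smul] at heq
      rw [toV_sub, toV_smul, ← heq]
      module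
  · intro hkind b
    rw [Bool.or_eq_true] at hdet
    rcases hdet with hdet | hdet
    · rcases hkind with e | e <;> rw [e] at hdet <;> simp at hdet
    rw [List.all_eq_true] at hdet
    have hlen : rootV.length = 48 := by decide
    have hb : (b : ℕ) < rootV.length := hlen ▸ b.2
    have hv : toV (goodF4.rc b) = rootV[(b : ℕ)] := by
      rw [show toV (goodF4.rc b) = _ from rootV_eq ⟨b, b.2⟩, List.getD_eq_getElem _ _ hb]
    have := hdet _ (List.getElem_mem hb)
    rw [← hv] at this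
    simpa only [chkDet, hk] using this

end Cfsg.Agent.H48.F4Graph
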